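import Cfsg.Agent.Lib.Scn3.Mu

/-!
# A maximal `σ`-invariant normal abelian subgroup containing `K`
-/

set_option autoImplicit false
set_option linter.style.haveILetI false
set_option linter.unusedSectionVars false
set_option linter.unusedVariables false

namespace Cfsg.Agent.Lib.Scn3

open Subgroup
open scoped commutatorElement
open Cfsg.Agent.Lib.PGroup.Critical (omegaCentralMod mem_omegaCentralMod exists_mem_central_mod normal_sup_zpowers card_sup_zpowers card_eq_mul_relIndex)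

variable {X : Type*} [Group X]

theorem ab_sup (B : Subgroup X) (hab : ∀ a ∈ B, ∀ b ∈ B, a * b = b * a) {y : X} (hy : ∀ a ∈ B, y * a = a * y) :
    ∀ a ∈ B ⊔ zpowers y, ∀ b ∈ B ⊔ zpowers y, a * b = b * a := by
  have h1 : B ⊔ zpowers y ≤ centralizer ({y} : Set X) := by
    refine sup_le ?_ ?_
    · intro a ha
      rw [mem_centralizer_singleton_iff]
      exact (hy a ha).symm
    · rw [zpowers_le, mem_centralizer_singleton_iff]
  have h2 : ∀ a ∈ B, B ⊔ zpowers y ≤ centralizer ({a} : Set X) := by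
    intro a ha
    refine sup_le ?_ ?_
    · intro c hc
      rw [mem_centralizer_singleton_iff]
      exact hab c hc a ha
    · rw [zpowers_le, mem_centralizer_singleton_iff]
      exact hy a ha
  have h3 : ∀ b ∈ B ⊔ zpowers y, B ⊔ zpowers y ≤ centralizer ({b} : Set X) := by
    intro b hb
    refine sup_le ?_ ?_
    · intro c hc
      have := h2 c hc hb
      rw [mem_centralizer_singleton_iff] at this ⊢
      exact this.symm
    · rw [zpowers_le]
      have := h1 hb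
      rw [mem_centralizer_singleton_iff] at this ⊢
      exact this.symm
  intro a ha b hb
  have := h3 b hb ha
  rwa [mem_centralizer_singleton_iff] at this

theorem ocm_aut_of_inv (B : Subgroup X) [B.Normal] (ψ : MulAut X) (hψ : ∀ b ∈ B, ψ b ∈ B) {n : X}
    (hn : n ∈ omegaCentralMod 2 B) : ψ n ∈ omegaCentralMod 2 B := by
  refine ⟨fun g => ?_, ?_⟩
  · rw [comm_aut_right]
    exact hψ _ (hn.1 _)
  · rw [← map_pow]
    exact hψ _ hn.2

theorem ocm_normal (B : Subgroup X) [hB : B.Normal] : (omegaCentralMod 2 B).Normal := by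
  refine ⟨fun n hn g => ?_⟩
  have := ocm_aut_of_inv B (MulAut.conj g) (fun b hb => by simpa using hB.conj_mem b hb g) hn
  simpa using this

theorem comm_sq_left' {a b : X} (h : a * ⁅a, b⁆ = ⁅a, b⁆ * a) : ⁅a ^ 2, b⁆ = ⁅a, b⁆ ^ 2 := by
  have e : ⁅a * a, b⁆ = a * ⁅a, b⁆ * a⁻¹ * ⁅a, b⁆ := by
    simp only [commutatorElement_def]; group
  rw [pow_two, pow_two, e, h]
  group

/-- The squaring map on an abelian subgroup. -/
def sqHom (B : Subgroup X) (hab : ∀ a ∈ B, ∀ b ∈ B, a * b = b * a) : B →* B :=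
  MonoidHom.mk' (fun a => ⟨a.1 ^ 2, pow_mem a.2 2⟩) (by
    intro a b
    apply Subtype.ext
    show (a.1 * b.1) ^ 2 = a.1 ^ 2 * b.1 ^ 2
    exact (show Commute a.1 b.1 from hab a.1 a.2 b.1 b.2).mul_pow 2)

/-- The conditions on a candidate `B`. -/
structure GoodB (σ : MulAut X) (B : Subgroup X) : Prop where
  hn : B.Normal
  hinv : ∀ b, σ b ∈ B ↔ b ∈ B
  hab : ∀ a ∈ B, ∀ b ∈ B, a * b = b * a
  hK : Kk X ≤ B

/-- Data about a power map on `B`. -/
structure PiD (B : Subgroup X) (d : ℕ) : Prop where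
  heven : 2 ∣ d
  h1 : ∀ b ∈ B, b ^ d ∈ om X
  h2 : ∀ w ∈ om X, ∃ b ∈ B, b ^ d = w
  h3 : ∀ b ∈ B, b ^ d = 1 → ∃ c ∈ B, c ^ 2 = b
  h4 : ∀ c ∈ B, (c ^ 2) ^ d = 1

namespace GoodB

variable {σ : MulAut X} {B : Subgroup X}

theorem om_le (hB : GoodB σ B) : om X ≤ B := om_le_Kk.trans hB.hK

theorem mem_symm (hB : GoodB σ B) {b : X} (hb : b ∈ B) : σ.symm b ∈ B := by
  rw [← hB.hinv]
  simpa using hb

theorem pow_mul (hB : GoodB σ B) {u v : X} (hu : u ∈ B) (hv : v ∈ B) (d : ℕ) : (u * v) ^ d = u ^ d * v ^ d :=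
  (show Commute u v from hB.hab u hu v hv).mul_pow d

end GoodB

namespace Sig

variable [Finite X] {A : Subgroup (MulAut X)} {σ : MulAut X}

/-- Involutions in a normal abelian subgroup containing `Ω` lie in `Ω`. -/
theorem invol_normal (S : Sig A σ) (B : Subgroup X) [B.Normal] (hab : ∀ a ∈ B, ∀ b ∈ B, a * b = b * a)
    (hW : om X ≤ B) {y : X} (hy : y ∈ B) (hy2 : y ^ 2 = 1) : y ∈ om X := by
  by_contra hyW
  haveI : Fact (Nat.Prime 2) := ⟨Nat.prime_two⟩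
  obtain ⟨hform, hE1, hE2⟩ := sup_props y hy2
  have hcard : Nat.card (om X ⊔ zpowers y : Subgroup X) = 8 := by
    rw [card_sup_zpowers (om X) hyW (by rw [hy2]; exact one_mem _), S.h4]
  have hE : Cfsg.IsElementaryAbelian 2 (om X ⊔ zpowers y) :=
    ⟨⟨⟨fun a b => Subtype.ext (hE1 a.1 a.2 b.1 b.2)⟩⟩, fun a ha => hE2 a ha⟩
  exact no_E8 S.H.hX S.H.hs B hab _ (sup_le hW (by rw [zpowers_le]; exact hy)) hE hcard

theorem card_ker_sq (S : Sig A σ) (B : Subgroup X) [B.Normal] (hab : ∀ a ∈ B, ∀ b ∈ B, a * b = b * a)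
    (hW : om X ≤ B) : Nat.card (sqHom B hab).ker = 4 := by
  rw [← S.h4]
  apply Nat.card_congr
  refine ⟨fun z => ⟨z.1.1, S.invol_normal B hab hW z.1.2 (congrArg Subtype.val z.2)⟩,
    fun w => ⟨⟨w.1, hW w.2⟩, Subtype.ext w.2.2⟩, fun z => rfl, fun w => rfl⟩

/-- Existence of the power map. -/
theorem exists_pi (S : Sig A σ) (h16 : Nat.card (Kk X) = 16) {B : Subgroup X} (hB : GoodB σ B) :
    ∃ d, PiD B d ∧ (d = 2 ∨ 4 ∣ d) := by
  classical
  haveI hBn := hB.hn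
  have hW := hB.om_le
  have hex : ∃ e : ℕ, ∀ b ∈ B, b ^ 2 ^ e = 1 := by
    obtain ⟨n, hn⟩ := IsPGroup.iff_card.mp S.H.hX
    exact ⟨n, fun b _ => by rw [← hn]; exact pow_card_eq_one'⟩
  obtain ⟨w0, hw0⟩ := S.exists_ne_one
  obtain ⟨k, hk, hk2⟩ := S.Kk_surj h16 w0.1 w0.2
  have hk2' : k ^ 2 ≠ 1 := by
    rw [hk2]
    exact fun h => hw0 (Subtype.ext h)
  have he0 : Nat.find hex ≠ 0 := by
    intro h
    have h1 := Nat.find_spec hex k (hB.hK hk)
    rw [h] at h1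
    apply hk2'
    have h2 : k = 1 := by simpa using h1
    rw [h2, one_pow]
  have he1 : Nat.find hex ≠ 1 := by
    intro h
    have h1 := Nat.find_spec hex k (hB.hK hk)
    rw [h] at h1
    exact hk2' (by simpa using h1)
  obtain ⟨f, hf⟩ : ∃ f, Nat.find hex = f + 2 := ⟨Nat.find hex - 2, by omega⟩
  have hspec := Nat.find_spec hex
  rw [hf] at hspec
  have hmin : ¬ ∀ b ∈ B, b ^ 2 ^ (f + 1) = 1 := Nat.find_min hex (by omega)
  push Not at hmin
  obtain ⟨b₀, hb₀, hb₀1⟩ := hmin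
  have h2d : 2 ^ (f + 2) = 2 * 2 ^ (f + 1) := by ring
  have hsq : ∀ b ∈ B, (b ^ 2 ^ (f + 1)) ^ 2 = 1 := by
    intro b hb
    rw [← _root_.pow_mul, mul_comm, ← h2d]
    exact hspec b hb
  have h1 : ∀ b ∈ B, b ^ 2 ^ (f + 1) ∈ om X := fun b hb =>
    S.invol_normal B hB.hab hW (pow_mem hb _) (hsq b hb)
  have h2 : ∀ w ∈ om X, ∃ b ∈ B, b ^ 2 ^ (f + 1) = w := by
    intro w hw
    rcases S.hgen _ (h1 b₀ hb₀) hb₀1 w hw with h | h | h | h
    · exact ⟨1, one_mem _, by rw [h, one_pow]⟩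
    · exact ⟨b₀, hb₀, h.symm⟩
    · exact ⟨σ b₀, (hB.hinv _).mpr hb₀, by rw [h, map_pow]⟩
    · exact ⟨σ (σ b₀), (hB.hinv _).mpr ((hB.hinv _).mpr hb₀), by rw [h, map_pow, map_pow]⟩
  have h4 : ∀ c ∈ B, (c ^ 2) ^ 2 ^ (f + 1) = 1 := by
    intro c hc
    rw [← _root_.pow_mul, ← h2d]
    exact hspec c hc
  refine ⟨2 ^ (f + 1), ⟨⟨2 ^ f, by ring⟩, h1, h2, ?_, h4⟩, ?_⟩
  · -- squares
    let pd : B →* om X := MonoidHom.mk' (fun b => ⟨b.1 ^ 2 ^ (f + 1), h1 b.1 b.2⟩) (by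
      intro a b
      apply Subtype.ext
      exact hB.pow_mul a.2 b.2 _)
    have hpds : Function.Surjective pd := by
      intro w
      obtain ⟨b, hb, hbw⟩ := h2 w.1 w.2
      exact ⟨⟨b, hb⟩, Subtype.ext hbw⟩
    have hc1 := card_ker_mul_range pd
    have hc2 := card_ker_mul_range (sqHom B hB.hab)
    rw [S.card_ker_sq B hB.hab hW] at hc2
    have hr : Nat.card pd.range = 4 := by
      rw [MonoidHom.range_eq_top.mpr hpds, Subgroup.card_top, S.h4]
    rw [hr] at hc1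
    have hle : (sqHom B hB.hab).range ≤ pd.ker := by
      rintro _ ⟨c, rfl⟩
      rw [MonoidHom.mem_ker]
      apply Subtype.ext
      exact h4 c.1 c.2
    have heq : (sqHom B hB.hab).range = pd.ker :=
      Subgroup.eq_of_le_of_card_ge hle (by omega)
    intro b hb hb1
    have hm : (⟨b, hb⟩ : B) ∈ pd.ker := by
      rw [MonoidHom.mem_ker]
      exact Subtype.ext hb1
    rw [← heq] at hm
    obtain ⟨c, hc⟩ := hm
    exact ⟨c.1, c.2, congrArg Subtype.val hc⟩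
  · rcases Nat.eq_zero_or_pos f with rfl | hf0
    · left; norm_num
    · right
      obtain ⟨g, rfl⟩ : ∃ g, f = g + 1 := ⟨f - 1, by omega⟩
      exact ⟨2 ^ g, by ring⟩

/-- A maximal `B` is self-centralizing. -/
theorem selfcent (S : Sig A σ) {B : Subgroup X} (hB : GoodB σ B)
    (hmax : ∀ B', GoodB σ B' → B ≤ B' → B' ≤ B) {d : ℕ} (hd : PiD B d) :
    centralizer (B : Set X) ≤ B := by
  haveI : Fact (Nat.Prime 2) := ⟨Nat.prime_two⟩
  haveI hBn := hB.hn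
  have hW := hB.om_le
  by_contra hnot
  haveI hCn : (centralizer (B : Set X)).Normal := inferInstance
  obtain ⟨x, hxC, hxB, hx2, hxg⟩ := exists_mem_central_mod S.H.hX B _ hnot
  haveI hNn : (omegaCentralMod 2 B).Normal := ocm_normal B
  let H : Subgroup X := centralizer (B : Set X) ⊓ omegaCentralMod 2 B
  have hca : ∀ a ∈ H, ∀ b ∈ B, a * b = b * a := fun a ha b hb => (mem_centralizer_iff.mp ha.1 b hb).symm
  have hBocm : B ≤ omegaCentralMod 2 B := by
    intro b hb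
    refine ⟨fun g => ?_, pow_mem hb 2⟩
    rw [commutatorElement_def]
    have h1 := hBn.conj_mem b⁻¹ (inv_mem hb) g
    have h2 : b * g * b⁻¹ * g⁻¹ = b * (g * b⁻¹ * g⁻¹) := by group
    rw [h2]
    exact mul_mem hb h1
  have hBH : B ≤ H := by
    intro b hb
    refine ⟨mem_centralizer_iff.mpr ?_, hBocm hb⟩
    intro c hc
    exact hB.hab c hc b hb
  have hcomm : ∀ a ∈ H, ∀ b ∈ H, ⁅a, b⁆ ∈ om X := by
    intro a ha b hb
    have hc := ha.2.1 b
    refine S.invol_normal B hB.hab hW hc ?_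
    rw [← comm_sq_left' (hca a ha _ hc)]
    rw [commutatorElement_eq_one_iff_mul_comm]
    exact (hca b hb _ ha.2.2).symm
  have hsqW : ∀ a ∈ H, (a ^ 2) ^ d ∈ om X := fun a ha => hd.h1 _ ha.2.2
  have hP1 : ∀ a ∈ H, ∀ b ∈ H, ((a * b) ^ 2) ^ d = (a ^ 2) ^ d * (b ^ 2) ^ d := by
    intro a ha b hb
    have hc := hcomm b hb a ha
    rw [sq_mul_of_central (om_le_center hc)]
    rw [hB.pow_mul (mul_mem ha.2.2 hb.2.2) (hW hc), hB.pow_mul ha.2.2 hb.2.2]
    obtain ⟨t, ht⟩ := hd.heven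
    rw [ht, _root_.pow_mul ⁅b, a⁆, hc.2, one_pow, mul_one]
  let P : H →* om X := MonoidHom.mk' (fun a => ⟨(a.1 ^ 2) ^ d, hsqW a.1 a.2⟩) (by
    intro a b
    apply Subtype.ext
    exact hP1 a.1 a.2 b.1 b.2)
  have hPker : ∀ a ∈ H, (a ^ 2) ^ d = 1 → a ∈ B := by
    intro a ha ha1
    obtain ⟨c, hc, hc2⟩ := hd.h3 _ ha.2.2 ha1
    have hcac : Commute a c⁻¹ := (show Commute a c from hca a ha c hc).inv_right
    have hy2 : (a * c⁻¹) ^ 2 = 1 := by
      rw [hcac.mul_pow, inv_pow, hc2, mul_inv_cancel]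
    have hyH : a * c⁻¹ ∈ H := mul_mem ha (inv_mem (hBH hc))
    have hyc : ∀ z ∈ B, (a * c⁻¹) * z = z * (a * c⁻¹) := fun z hz => hca _ hyH z hz
    haveI hMn : (B ⊔ zpowers (a * c⁻¹)).Normal := normal_sup_zpowers B hyH.2.1
    have hyW := S.invol_normal (B ⊔ zpowers (a * c⁻¹)) (ab_sup B hB.hab hyc) (hW.trans le_sup_left)
      ((le_sup_right : zpowers (a * c⁻¹) ≤ B ⊔ zpowers (a * c⁻¹)) (mem_zpowers _)) hy2
    have hfin : a = (a * c⁻¹) * c := by group
    rw [hfin]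
    exact mul_mem (hW hyW) hc
  have hcardH : Nat.card H ≤ 4 * Nat.card B := by
    rw [card_ker_mul_range P, mul_comm]
    refine Nat.mul_le_mul ?_ ?_
    · rw [← S.h4]
      exact Subgroup.card_le_card_group _
    · refine Nat.card_le_card_of_injective
        (fun z : P.ker => (⟨z.1.1, hPker z.1.1 z.1.2 (congrArg Subtype.val z.2)⟩ : B)) ?_
      intro z z' h
      have h' : z.1.1 = z'.1.1 := congrArg (fun q : B => q.1) h
      exact Subtype.ext (Subtype.ext h')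
  -- invariance
  have hinvH : ∀ ψ : MulAut X, (∀ b ∈ B, ψ b ∈ B) → (∀ b ∈ B, ψ.symm b ∈ B) → ∀ a ∈ H, ψ a ∈ H := by
    intro ψ h1 h2 a ha
    refine ⟨mem_centralizer_iff.mpr ?_, ocm_aut_of_inv B ψ h1 ha.2⟩
    intro b hb
    have h3 := hca a ha _ (h2 b hb)
    have h4 := congrArg ψ h3
    simpa using h4.symm
  have hσ1 : ∀ b ∈ B, σ b ∈ B := fun b hb => (hB.hinv b).mpr hb
  have hσ2 : ∀ b ∈ B, σ.symm b ∈ B := fun b hb => hB.mem_symm hb
  have hnew : ∀ u ∈ H, u ∉ B → σ u ∉ B ∧ u⁻¹ * σ u ∉ B := by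
    intro u hu huB
    refine ⟨fun h => huB ((hB.hinv u).mp h), fun hz => huB ?_⟩
    apply hPker u hu
    apply S.hfix _ (hsqW u hu)
    have h1 : σ ((u ^ 2) ^ d) = ((σ u) ^ 2) ^ d := by rw [map_pow, map_pow]
    rw [h1]
    have h2 : σ u = u * (u⁻¹ * σ u) := by group
    have h3 := hP1 u hu _ (hBH hz)
    rw [← h2, hd.h4 _ hz, mul_one] at h3
    exact h3
  have hHab := S.tri_ab H B hBH (fun l hl h hh => (hca h hh l hl).symm) hcomm
    (fun a ha => hinvH σ hσ1 hσ2 a ha) hcardH hnew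
  have hgood : GoodB σ H := by
    refine ⟨inferInstance, ?_, hHab, hB.hK.trans hBH⟩
    intro a
    refine ⟨fun h => ?_, hinvH σ hσ1 hσ2 a⟩
    have := hinvH σ.symm hσ2 (by simpa using hσ1) _ h
    simpa using this
  exact hxB (hmax H hgood hBH ⟨hxC, hxg, hx2⟩)

/-- `X` is nonabelian: `⁅x, y⁆ ∈ Ω` as soon as all squares are. -/
theorem comm_of_sq (_S : Sig A σ) (hsq : ∀ x : X, x ^ 2 ∈ om X) (x y : X) : ⁅x, y⁆ ∈ om X := by
  have hz := (hsq x).1
  have e : ⁅x, y⁆ = (x * y) ^ 2 * (y ^ 2)⁻¹ * (x ^ 2)⁻¹ := by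
    have h1 : x⁻¹ = x * (x ^ 2)⁻¹ := by rw [pow_two]; group
    have h2 : (x ^ 2)⁻¹ * y⁻¹ = y⁻¹ * (x ^ 2)⁻¹ := (mem_center_iff.mp (inv_mem hz) y⁻¹).symm
    calc ⁅x, y⁆ = x * y * x⁻¹ * y⁻¹ := commutatorElement_def x y
      _ = x * y * (x * (x ^ 2)⁻¹) * y⁻¹ := by rw [← h1]
      _ = x * y * x * ((x ^ 2)⁻¹ * y⁻¹) := by group
      _ = x * y * x * (y⁻¹ * (x ^ 2)⁻¹) := by rw [h2]
      _ = (x * y) ^ 2 * (y ^ 2)⁻¹ * (x ^ 2)⁻¹ := by rw [pow_two, pow_two]; group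
  rw [e]
  exact mul_mem (mul_mem (hsq _) (inv_mem (hsq _))) (inv_mem (hsq _))

/-- The case of exponent four. -/
theorem no_d2 (S : Sig A σ) (h16 : Nat.card (Kk X) = 16) {μ : X →* (om X →* om X)}
    (hμ : ∀ (x k : X) (hk : k ∈ Kk X), ((μ x ⟨k ^ 2, hk.2⟩ : om X) : X) = ⁅k, x⁆)
    (hτ : ∀ x, Tri.tau (sW σ) (μ x) = 1) {B : Subgroup X} (hB : GoodB σ B)
    (hcent : centralizer (B : Set X) ≤ B) (hd : PiD B 2) : False := by
  haveI hBn := hB.hn
  have hW := hB.om_le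
  have hBsq : ∀ b ∈ B, b ^ 2 ∈ om X := fun b hb =>
    S.invol_normal B hB.hab hW (pow_mem hb 2) (hd.h4 b hb)
  have hcnt := S.sq_count B hB.hab hW hBsq (fun a ha h2 => S.invol_normal B hB.hab hW ha h2)
  have hBK : Kk X = B := Subgroup.eq_of_le_of_card_ge hB.hK (by rw [h16]; exact hcnt.1)
  rw [← hBK] at hcent
  have hcomm2 : ∀ x : X, x ^ 2 ∈ Kk X := by
    intro x
    apply hcent
    rw [mem_centralizer_iff]
    intro k hk
    rw [← commutatorElement_eq_one_iff_mul_comm, comm_sq_right (om_le_center (hk.1 x))]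
    exact (hk.1 x).2
  have hsq : ∀ x : X, x ^ 2 ∈ om X := by
    intro x
    by_contra hx
    have hx2 := hcomm2 x
    have hv : (⟨(x ^ 2) ^ 2, hx2.2⟩ : om X) ≠ 1 := by
      intro h
      exact hx (S.Kk_inv_mem hx2 (congrArg Subtype.val h))
    have hm : μ x ⟨(x ^ 2) ^ 2, hx2.2⟩ = 1 := by
      apply Subtype.ext
      rw [hμ x _ hx2]
      show ⁅x ^ 2, x⁆ = 1
      rw [commutatorElement_eq_one_iff_mul_comm]
      exact (pow_succ x 2).symm.trans (pow_succ' x 2)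
    have hall := S.tri.eq_one_of_tau (hτ x) hv hm
    have hxC : x ∈ Kk X := by
      apply hcent
      rw [mem_centralizer_iff]
      intro k hk
      have h1 := hμ x k hk
      rw [hall] at h1
      exact commutatorElement_eq_one_iff_mul_comm.mp h1.symm
    exact hx hxC.2
  have hK : Kk X = ⊤ := eq_top_iff.mpr (fun x _ => ⟨S.comm_of_sq hsq x, hsq x⟩)
  obtain ⟨a, b, hab⟩ := S.H.hna
  exact hab (S.Kk_ab h16 a (by rw [hK]; exact mem_top a) b (by rw [hK]; exact mem_top b))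

end Sig

end Cfsg.Agent.Lib.Scn3
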