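import Mathlib
import Cfsg.Agent.Lib.PGroup.Critical
import Cfsg.Agent.Lib.PGroup.AnisoQuad
import Cfsg.Agent.Lib.PGroup.Extraspecial
import Cfsg.Agent.Lib.PGroup.ActionFrattini
import Cfsg.Agent.Lib.Fusion.EssentialCube

/-!
# Two-groups with no normal `E₈` admitting an odd group of automorphisms: basic tools
-/

set_option autoImplicit false
set_option linter.style.haveILetI false

namespace Cfsg.Agent.Lib.Scn3

open Subgroup
open scoped commutatorElement
open Cfsg.Agent.Lib.PGroup.Critical (omegaCentralMod mem_omegaCentralMod exists_mem_central_mod normal_sup_zpowers card_sup_zpowers)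

variable {X : Type*} [Group X]

/-- `Ω₁(Z(X))`. -/
def om (X : Type*) [Group X] : Subgroup X where
  carrier := {z | z ∈ center X ∧ z ^ 2 = 1}
  one_mem' := ⟨one_mem _, one_pow _⟩
  mul_mem' := by
    rintro a b ⟨ha, ha2⟩ ⟨hb, hb2⟩
    refine ⟨mul_mem ha hb, ?_⟩
    have hc : Commute a b := (mem_center_iff.mp ha b).symm
    rw [hc.mul_pow, ha2, hb2, mul_one]
  inv_mem' := by
    rintro a ⟨ha, ha2⟩
    exact ⟨inv_mem ha, by rw [inv_pow, ha2, inv_one]⟩

theorem mem_om {z : X} : z ∈ om X ↔ z ∈ center X ∧ z ^ 2 = 1 := Iff.rfl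

theorem om_le_center : om X ≤ center X := fun _ h => h.1

instance : (om X).Normal := by
  refine ⟨fun n hn g => ?_⟩
  have h1 := mem_center_iff.mp hn.1 g
  rw [h1]
  simpa using hn

noncomputable instance omCommGroup : CommGroup (om X) :=
  { (inferInstance : Group (om X)) with
    mul_comm := fun a b => Subtype.ext (mem_center_iff.mp a.2.1 b.1).symm }

theorem comm_mul_right_of_central {n g h : X} (hc : ⁅n, h⁆ ∈ center X) :
    ⁅n, g * h⁆ = ⁅n, g⁆ * ⁅n, h⁆ := by
  have h1 := mem_center_iff.mp hc g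
  have e : ⁅n, g * h⁆ = ⁅n, g⁆ * (g * ⁅n, h⁆ * g⁻¹) := by
    simp only [commutatorElement_def]; group
  rw [e, h1]
  simp

theorem comm_mul_left_of_central {x y g : X} (hc : ⁅y, g⁆ ∈ center X) :
    ⁅x * y, g⁆ = ⁅x, g⁆ * ⁅y, g⁆ := by
  have h1 := mem_center_iff.mp hc x
  have e : ⁅x * y, g⁆ = (x * ⁅y, g⁆ * x⁻¹) * ⁅x, g⁆ := by
    simp only [commutatorElement_def]; group
  rw [e, h1]
  simp only [mul_inv_cancel_right]
  exact (mem_center_iff.mp hc _).symm

theorem sq_mul_of_central {a b : X} (hc : ⁅b, a⁆ ∈ center X) :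
    (a * b) ^ 2 = a ^ 2 * b ^ 2 * ⁅b, a⁆ := by
  have h1 := mem_center_iff.mp hc a
  have h2 := mem_center_iff.mp hc b
  have e : (a * b) ^ 2 = a * ⁅b, a⁆ * a * b * b := by
    simp only [pow_two, commutatorElement_def]; group
  have e2 : a * ⁅b, a⁆ * a * b * b = ⁅b, a⁆ * (a * a * (b * b)) := by
    rw [h1]; simp only [mul_assoc]
  rw [e, e2, pow_two, pow_two]
  exact (mem_center_iff.mp hc _).symm

/-- The commutator hom `g ↦ ⁅n, g⁆` into a central subgroup. -/
def comHom (W : Subgroup X) (hW : W ≤ center X) (n : X) (h : ∀ g, ⁅n, g⁆ ∈ W) : X →* W :=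
  MonoidHom.mk' (fun g => ⟨⁅n, g⁆, h g⟩) (fun g k => Subtype.ext (by
    exact comm_mul_right_of_central (hW (h k))))

@[simp] theorem comHom_apply (W : Subgroup X) (hW : W ≤ center X) (n : X) (h : ∀ g, ⁅n, g⁆ ∈ W) (g : X) :
    ((comHom W hW n h g : W) : X) = ⁅n, g⁆ := rfl

/-- commutators with a central subgroup are trivial. -/
theorem comm_eq_one_of_center_left {z g : X} (hz : z ∈ center X) : ⁅z, g⁆ = 1 := by
  rw [commutatorElement_eq_one_iff_mul_comm]
  exact (mem_center_iff.mp hz g).symm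

theorem comm_eq_one_of_center_right {z g : X} (hz : z ∈ center X) : ⁅g, z⁆ = 1 := by
  rw [commutatorElement_eq_one_iff_mul_comm]
  exact (mem_center_iff.mp hz g)

theorem comm_sq_left {n g : X} (hc : ⁅n, g⁆ ∈ center X) : ⁅n ^ 2, g⁆ = ⁅n, g⁆ ^ 2 := by
  rw [pow_two, pow_two]
  exact comm_mul_left_of_central hc

theorem comm_sq_right {n g : X} (hc : ⁅n, g⁆ ∈ center X) : ⁅n, g ^ 2⁆ = ⁅n, g⁆ ^ 2 := by
  rw [pow_two, pow_two]
  exact comm_mul_right_of_central hc

/-! ### Averaging over an odd group of automorphisms -/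

section Avg

variable {Y : Type*} [CommGroup Y] (A : Subgroup (MulAut X))

theorem hom_eq_one_of_invariant
    (hXA : closure {g : X | ∃ φ ∈ A, ∃ x : X, g = x⁻¹ * φ x} = ⊤)
    (π : X →* Y) (hπ : ∀ φ ∈ A, ∀ x, π (φ x) = π x) : ∀ x, π x = 1 := by
  have hle : closure {g : X | ∃ φ ∈ A, ∃ x : X, g = x⁻¹ * φ x} ≤ π.ker := by
    rw [closure_le]
    rintro _ ⟨φ, hφ, x, rfl⟩
    rw [SetLike.mem_coe, MonoidHom.mem_ker, map_mul, map_inv, hπ φ hφ, inv_mul_cancel]
  rw [hXA] at hle
  intro x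
  exact hle (mem_top x)

theorem hom_fix_eq_one [Finite X] (hY : IsPGroup 2 Y) (hA : Odd (Nat.card A))
    (hXA : closure {g : X | ∃ φ ∈ A, ∃ x : X, g = x⁻¹ * φ x} = ⊤)
    (π : X →* Y) {r : X} (hr : ∀ φ ∈ A, π (φ r) = π r) : π r = 1 := by
  classical
  letI : Fintype A := Fintype.ofFinite A
  let T : X →* Y := MonoidHom.mk' (fun x => ∏ φ : A, π ((φ : MulAut X) x)) (by
    intro a b
    simp only [map_mul, Finset.prod_mul_distrib])
  have hT : ∀ x, T x = 1 := by
    refine hom_eq_one_of_invariant A hXA T ?_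
    intro ψ hψ x
    show (∏ φ : A, π ((φ : MulAut X) (ψ x))) = ∏ φ : A, π ((φ : MulAut X) x)
    exact Fintype.prod_equiv (Equiv.mulRight (⟨ψ, hψ⟩ : A)) _ _ (fun φ => rfl)
  have h1 : T r = π r ^ Nat.card A := by
    show (∏ φ : A, π ((φ : MulAut X) r)) = _
    rw [Finset.prod_congr rfl (fun φ _ => hr φ.1 φ.2)]
    simp [Nat.card_eq_fintype_card]
  rw [hT r] at h1
  obtain ⟨n, hn⟩ := hY (π r)
  have h2 : orderOf (π r) ∣ Nat.card A := orderOf_dvd_of_pow_eq_one h1.symm
  have h3 : orderOf (π r) ∣ 2 ^ n := orderOf_dvd_of_pow_eq_one hn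
  have h4 : Nat.Coprime (Nat.card A) (2 ^ n) := Nat.Coprime.pow_right _ (Nat.coprime_two_right.mpr hA)
  have h5 := Nat.dvd_gcd h2 h3
  rw [h4] at h5
  exact orderOf_eq_one_iff.mp (Nat.dvd_one.mp h5)

end Avg

/-- An automorphism of odd order with `φ² y = y` fixes `y`. -/
theorem fix_of_sq_fix [Finite X] {φ : MulAut X} (hφ : Odd (orderOf φ)) {y : X} (h : φ (φ y) = y) : φ y = y := by
  obtain ⟨k, hk⟩ := hφ
  have h1 : φ ^ (2 * k + 1) = 1 := by rw [← hk]; exact pow_orderOf_eq_one φ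
  have h2 : ∀ j : ℕ, (φ ^ (2 * j)) y = y := by
    intro j
    induction j with
    | zero => simp
    | succ j ih =>
      rw [show 2 * (j + 1) = 2 * j + 2 by ring, pow_add, MulAut.mul_apply, pow_two, MulAut.mul_apply, h, ih]
  have h3 : (φ ^ (2 * k + 1)) y = y := by rw [h1]; rfl
  rw [pow_succ', MulAut.mul_apply, h2] at h3
  exact h3

theorem odd_orderOf_of_mem {A : Subgroup (MulAut X)} [Finite X] (hA : Odd (Nat.card A)) {φ : MulAut X} (hφ : φ ∈ A) :
    Odd (orderOf φ) := by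
  have h1 : orderOf φ ∣ Nat.card A := by
    have := orderOf_dvd_natCard (⟨φ, hφ⟩ : A)
    rwa [Subgroup.orderOf_mk] at this
  exact Odd.of_dvd_nat hA h1

/-! ### No normal `E₈` -/

section NoE8

variable [Finite X]

theorem exists_selfcent (hX : IsPGroup 2 X) (B : Subgroup X) [hB : B.Normal] (hab : ∀ a ∈ B, ∀ b ∈ B, a * b = b * a) :
    ∃ M : Subgroup X, B ≤ M ∧ M.Normal ∧ centralizer (M : Set X) = M := by
  classical
  haveI : Fact (Nat.Prime 2) := ⟨Nat.prime_two⟩
  obtain ⟨M, hM⟩ := (Set.toFinite {V : Subgroup X | V.Normal ∧ ∀ a ∈ V, ∀ b ∈ V, a * b = b * a}).exists_le_maximal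
    (show B ∈ {V : Subgroup X | V.Normal ∧ ∀ a ∈ V, ∀ b ∈ V, a * b = b * a} from ⟨hB, hab⟩)
  obtain ⟨hBM, ⟨hMn, hMab⟩, hmax⟩ := hM
  refine ⟨M, hBM, hMn, ?_⟩
  haveI := hMn
  have hle : M ≤ centralizer (M : Set X) := by
    intro a ha
    rw [mem_centralizer_iff]
    intro b hb
    exact hMab b hb a ha
  refine le_antisymm ?_ hle
  by_contra hnot
  haveI hCn : (centralizer (M : Set X)).Normal := inferInstance
  obtain ⟨x, hxC, hxM, -, hxg⟩ := exists_mem_central_mod hX M (centralizer (M : Set X)) hnot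
  have hN : (M ⊔ zpowers x).Normal := normal_sup_zpowers M hxg
  have hab2 : ∀ a ∈ M ⊔ zpowers x, ∀ b ∈ M ⊔ zpowers x, a * b = b * a := by
    have hcx : M ⊔ zpowers x ≤ centralizer ((M ⊔ zpowers x : Subgroup X) : Set X) := by
      have h1 : M ≤ centralizer ((M ⊔ zpowers x : Subgroup X) : Set X) := by
        intro a ha
        rw [mem_centralizer_iff]
        intro b hb
        have : b ∈ centralizer ({a} : Set X) := by
          have hle2 : M ⊔ zpowers x ≤ centralizer ({a} : Set X) := by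
            refine sup_le ?_ ?_
            · intro c hc
              rw [mem_centralizer_singleton_iff]
              exact hMab c hc a ha
            · rw [zpowers_le, mem_centralizer_singleton_iff]
              have := mem_centralizer_iff.mp hxC a ha
              exact this.symm
          exact hle2 hb
        rw [mem_centralizer_singleton_iff] at this
        exact this
      have h2 : zpowers x ≤ centralizer ((M ⊔ zpowers x : Subgroup X) : Set X) := by
        rw [zpowers_le, mem_centralizer_iff]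
        intro b hb
        have hle2 : M ⊔ zpowers x ≤ centralizer ({x} : Set X) := by
          refine sup_le ?_ ?_
          · intro c hc
            rw [mem_centralizer_singleton_iff]
            exact (mem_centralizer_iff.mp hxC c hc)
          · rw [zpowers_le, mem_centralizer_singleton_iff]
        have := hle2 hb
        rw [mem_centralizer_singleton_iff] at this
        exact this
      exact sup_le h1 h2
    intro a ha b hb
    exact (mem_centralizer_iff.mp (hcx ha) b hb).symm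
  have hmem : M ⊔ zpowers x ∈ {V : Subgroup X | V.Normal ∧ ∀ a ∈ V, ∀ b ∈ V, a * b = b * a} := ⟨hN, hab2⟩
  have hle3 : M ≤ M ⊔ zpowers x := le_sup_left
  have := hmax hmem hle3
  exact hxM (this ((le_sup_right : zpowers x ≤ M ⊔ zpowers x) (mem_zpowers x)))

/-- The hypothesis on the group: no normal abelian self-centralizing subgroup contains an `E₈`. -/
def NoScn (X : Type*) [Group X] : Prop :=
  ¬ ∃ A : Subgroup X, A.Normal ∧ centralizer (A : Set X) = A ∧
      ∃ E : Subgroup X, E ≤ A ∧ Cfsg.IsElementaryAbelian 2 E ∧ Nat.card E = 8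

theorem no_E8 (hX : IsPGroup 2 X) (hs : NoScn X) (B : Subgroup X) [B.Normal]
    (hab : ∀ a ∈ B, ∀ b ∈ B, a * b = b * a) (E : Subgroup X) (hEB : E ≤ B)
    (hE : Cfsg.IsElementaryAbelian 2 E) (hc : Nat.card E = 8) : False := by
  obtain ⟨M, hBM, hMn, hMc⟩ := exists_selfcent hX B hab
  exact hs ⟨M, hMn, hMc, E, hEB.trans hBM, hE, hc⟩

/-- Adding an involution, central modulo `M`, to a normal elementary abelian subgroup `M` of order four
is impossible. -/
theorem add_invol (hX : IsPGroup 2 X) (hs : NoScn X) (M : Subgroup X) [M.Normal]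
    (hMab : ∀ a ∈ M, ∀ b ∈ M, a * b = b * a) (hM2 : ∀ a ∈ M, a ^ 2 = 1) (hMc : Nat.card M = 4)
    {y : X} (hy2 : y ^ 2 = 1) (hyM : ∀ a ∈ M, a * y = y * a) (hyg : ∀ g, ⁅y, g⁆ ∈ M) : y ∈ M := by
  by_contra hy
  haveI : Fact (Nat.Prime 2) := ⟨Nat.prime_two⟩
  have hN : (M ⊔ zpowers y).Normal := normal_sup_zpowers M hyg
  have hy2' : y ^ 2 ∈ M := by rw [hy2]; exact one_mem _
  have hcard : Nat.card (M ⊔ zpowers y : Subgroup X) = 8 := by
    rw [card_sup_zpowers M hy hy2', hMc]
  -- everything commutes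
  have hcomm : ∀ a ∈ M ⊔ zpowers y, ∀ b ∈ M ⊔ zpowers y, a * b = b * a ∧ a ^ 2 = 1 := by
    intro a ha b hb
    have ha' : a ∈ ((M ⊔ zpowers y : Subgroup X) : Set X) := ha
    have hb' : b ∈ ((M ⊔ zpowers y : Subgroup X) : Set X) := hb
    rw [normal_mul] at ha' hb'
    obtain ⟨m, hm, z, hz, rfl⟩ := Set.mem_mul.mp ha'
    obtain ⟨m', hm', z', hz', rfl⟩ := Set.mem_mul.mp hb'
    obtain ⟨i, rfl⟩ := mem_zpowers_iff.mp hz
    obtain ⟨j, rfl⟩ := mem_zpowers_iff.mp hz'
    have hcy : ∀ (c : X) (_ : c ∈ M) (k : ℤ), c * y ^ k = y ^ k * c := by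
      intro c hc k
      exact ((show Commute c y from hyM c hc).zpow_right k).eq
    constructor
    · calc m * y ^ i * (m' * y ^ j) = m * (y ^ i * m') * y ^ j := by group
        _ = m * (m' * y ^ i) * y ^ j := by rw [hcy m' hm' i]
        _ = (m * m') * (y ^ i * y ^ j) := by group
        _ = (m' * m) * (y ^ j * y ^ i) := by
            rw [hMab m hm m' hm', ← zpow_add, ← zpow_add, add_comm]
        _ = m' * (m * y ^ j) * y ^ i := by group
        _ = m' * (y ^ j * m) * y ^ i := by rw [hcy m hm j]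
        _ = m' * y ^ j * (m * y ^ i) := by group
    · have hyi : (y ^ i) ^ 2 = 1 := by
        rw [← zpow_natCast, ← zpow_mul, mul_comm, zpow_mul]
        simp [hy2]
      calc (m * y ^ i) ^ 2 = m * (y ^ i * m) * y ^ i := by rw [pow_two]; group
        _ = m * (m * y ^ i) * y ^ i := by rw [hcy m hm i]
        _ = m ^ 2 * (y ^ i) ^ 2 := by rw [pow_two, pow_two]; group
        _ = 1 := by rw [hM2 m hm, hyi, one_mul]
  have hE : Cfsg.IsElementaryAbelian 2 (M ⊔ zpowers y) := by
    refine ⟨⟨⟨fun a b => Subtype.ext (hcomm a.1 a.2 b.1 b.2).1⟩⟩, fun a ha => (hcomm a ha a ha).2⟩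
  exact no_E8 hX hs (M ⊔ zpowers y) (fun a ha b hb => (hcomm a ha b hb).1) _ le_rfl hE hcard

end NoE8

end Cfsg.Agent.Lib.Scn3
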