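import Cfsg.Agent.Lib.Scn3.CaseTwo

/-!
# `Ω₁(Z(X))` of order two: `X` is `Q₈` or `Q₈ ∘ D₈`
-/

set_option autoImplicit false
set_option linter.style.haveILetI false
set_option linter.unusedSectionVars false

namespace Cfsg.Agent.Lib.Scn3

open Subgroup
open scoped commutatorElement
open Cfsg.Agent.Lib.PGroup.Critical (omegaCentralMod mem_omegaCentralMod exists_mem_central_mod normal_sup_zpowers card_sup_zpowers)

variable {X : Type*} [Group X]

/-- Index of the centralizer, when all commutators with `a` lie in a central subgroup of order two. -/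
theorem index_centralizer_le [Finite X] {a : X} (hc : ∀ g, ⁅a, g⁆ ∈ om X) (h2 : Nat.card (om X) = 2) :
    (centralizer ({a} : Set X)).index ≤ 2 := by
  have hker : (comHom (om X) om_le_center a hc).ker = centralizer ({a} : Set X) := by
    ext g
    rw [MonoidHom.mem_ker, mem_centralizer_singleton_iff]
    constructor
    · intro h
      have h3 : ⁅a, g⁆ = 1 := congrArg Subtype.val h
      exact (commutatorElement_eq_one_iff_mul_comm.mp h3).symm
    · intro h
      apply Subtype.ext
      show ⁅a, g⁆ = 1
      exact commutatorElement_eq_one_iff_mul_comm.mpr h.symm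
  rw [← hker, Subgroup.index_ker, ← h2]
  exact Subgroup.card_le_card_group _

section

variable [Finite X] {A : Subgroup (MulAut X)}

/-- Properties of `Ω ⊔ ⟨a⟩` for an involution `a`. -/
theorem sup_props (a : X) (ha2 : a ^ 2 = 1) :
    (∀ b ∈ om X ⊔ zpowers a, ∃ w ∈ om X, b = w ∨ b = w * a) ∧
    (∀ b ∈ om X ⊔ zpowers a, ∀ c ∈ om X ⊔ zpowers a, b * c = c * b) ∧
    (∀ b ∈ om X ⊔ zpowers a, b ^ 2 = 1) := by
  have hform : ∀ b ∈ om X ⊔ zpowers a, ∃ w ∈ om X, b = w ∨ b = w * a := by
    intro b hb
    have hb' : b ∈ ((om X ⊔ zpowers a : Subgroup X) : Set X) := hb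
    rw [normal_mul] at hb'
    obtain ⟨w, hw, z, hz, rfl⟩ := Set.mem_mul.mp hb'
    obtain ⟨i, rfl⟩ := mem_zpowers_iff.mp hz
    refine ⟨w, hw, ?_⟩
    rcases Int.even_or_odd' i with ⟨k, rfl | rfl⟩
    · left
      have : a ^ (2 * k) = 1 := by rw [zpow_mul]; simp [ha2]
      simp [this]
    · right
      have : a ^ (2 * k + 1) = a := by
        rw [zpow_add, zpow_mul, zpow_one]; simp [ha2]
      simp [this]
  have hcen : ∀ w ∈ om X, ∀ g : X, Commute w g := fun w hw g => (mem_center_iff.mp hw.1 g).symm
  refine ⟨hform, ?_, ?_⟩
  · intro b hb c hc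
    obtain ⟨w, hw, h1 | h1⟩ := hform b hb <;> obtain ⟨w', hw', h2 | h2⟩ := hform c hc <;> rw [h1, h2]
    · exact (hcen w hw _).eq
    · exact (hcen w hw _).eq
    · exact (hcen w' hw' _).eq.symm
    · exact ((hcen w hw _).mul_left ((hcen w' hw' a).symm.mul_right (Commute.refl a))).eq
  · intro b hb
    obtain ⟨w, hw, h1 | h1⟩ := hform b hb <;> rw [h1]
    · exact hw.2
    · rw [(hcen w hw a).mul_pow, hw.2, ha2, one_mul]

theorem case_one (H : Hyp A) (hT : ∀ φ ∈ A, ∀ w ∈ om X, φ w = w) (h2 : Nat.card (om X) = 2) :
    Nonempty (X ≃* QuaternionGroup 2) ∨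
      (Cfsg.IsExtraspecial 2 X ∧ Nat.card X = 32 ∧ Nat.card {x : X // orderOf x = 2} = 11) := by
  classical
  haveI : Fact (Nat.Prime 2) := ⟨Nat.prime_two⟩
  letI instX : Fintype X := Fintype.ofFinite X
  obtain ⟨h1', h2', h3', hsq, hcomm⟩ := triv_main H hT (Or.inl h2)
  have hE : Cfsg.IsExtraspecial 2 X := by
    refine ⟨⟨H.hX, h3'.trans h2'.symm, h1'.trans h2'.symm⟩, ?_⟩
    rw [h2', h2]
  obtain ⟨n, hn1, hn⟩ := Cfsg.Agent.Lib.PGroup.Extraspecial.IsExtraspecial.exists_card_eq hE
  -- the central involution
  obtain ⟨z, hzne, hz⟩ : ∃ z : om X, z ≠ 1 ∧ ∀ w : om X, w = 1 ∨ w = z := by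
    obtain ⟨u, v, huv, hall⟩ := Nat.card_eq_two_iff.mp h2
    by_cases hu : u = 1
    · refine ⟨v, ?_, fun w => ?_⟩
      · intro hv; exact huv (hu.trans hv.symm)
      · have : w ∈ ({u, v} : Set (om X)) := by rw [hall]; trivial
        rcases this with h | h
        · left; rw [h, hu]
        · right; exact h
    · refine ⟨u, hu, fun w => ?_⟩
      have h1 : (1 : om X) ∈ ({u, v} : Set (om X)) := by rw [hall]; trivial
      have hv : v = 1 := by
        rcases h1 with h | h
        · exact absurd h.symm hu
        · exact h.symm
      have : w ∈ ({u, v} : Set (om X)) := by rw [hall]; trivial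
      rcases this with h | h
      · right; exact h
      · left; rw [h, hv]
  set zz : X := (z : X) with hzz
  have hzz1 : zz ≠ 1 := fun h => hzne (Subtype.ext h)
  have hzmem : zz ∈ om X := z.2
  have hom : ∀ w ∈ om X, w = 1 ∨ w = zz := by
    intro w hw
    rcases hz ⟨w, hw⟩ with h | h
    · left; exact congrArg Subtype.val h
    · right; exact congrArg Subtype.val h
  have hzcen : ∀ g : X, Commute zz g := fun g => (mem_center_iff.mp hzmem.1 g).symm
  have hzz2 : zz * zz = 1 := by rw [← pow_two]; exact hzmem.2
  have hsq' : ∀ x : X, x ^ 2 = 1 ∨ x ^ 2 = zz := fun x => hom _ (hsq x)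
  have hcomm' : ∀ x y : X, ⁅x, y⁆ = 1 ∨ ⁅x, y⁆ = zz := fun x y => hom _ (hcomm x y)
  have hab : ∀ a ∈ om X, ∀ b ∈ om X, a * b = b * a := fun a _ b hb => (mem_center_iff.mp hb.1 a)
  obtain ⟨p, q, hpq⟩ := H.hna
  rcases Nat.lt_or_ge n 2 with hn2 | hn2
  · -- order eight
    have hn' : n = 1 := by omega
    subst hn'
    left
    rcases Cfsg.Agent.Lib.Fusion.EssentialCube.order_eight_dichotomy (by rw [hn]; norm_num) ⟨p, q, hpq⟩ with h | ⟨M, hM, hMi⟩
    · exact h
    · exfalso
      have hle : closure {g : X | ∃ φ ∈ A, ∃ x : X, g = x⁻¹ * φ x} ≤ M := by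
        rw [closure_le]
        rintro _ ⟨φ, -, x, rfl⟩
        show x⁻¹ * φ x ∈ M
        rw [Subgroup.mul_mem_iff_of_index_two hMi, inv_mem_iff]
        constructor
        · intro h
          exact hM φ x h
        · intro h
          have := hM φ.symm _ h
          simpa using this
      rw [H.hXA] at hle
      have : M = ⊤ := top_le_iff.mp hle
      rw [this, Subgroup.index_top] at hMi
      omega
  · right
    refine ⟨hE, ?_⟩
    -- a noncentral involution
    have hge : 32 ≤ Nat.card X := by
      rw [hn]
      calc 32 = 2 ^ (2 * 2 + 1) := by norm_num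
        _ ≤ 2 ^ (2 * n + 1) := Nat.pow_le_pow_right (by norm_num) (by omega)
    have hidx : ∀ a : X, (centralizer ({a} : Set X)).index ≤ 2 := fun a => index_centralizer_le (fun g => hcomm a g) h2
    obtain ⟨a, ha2, haZ⟩ : ∃ a : X, a ^ 2 = 1 ∧ a ∉ om X := by
      have hpn : p ∉ om X := by
        intro h
        exact hpq (mem_center_iff.mp h.1 q).symm
      rcases hsq' p with h | h
      · exact ⟨p, h, hpn⟩
      · -- `p` has order four
        have hcardC : 8 < Nat.card (centralizer ({p} : Set X)) := by
          have h3 := Subgroup.card_mul_index (centralizer ({p} : Set X))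
          have h4 := hidx p
          have h5 : 0 < (centralizer ({p} : Set X)).index := Nat.pos_of_ne_zero (Subgroup.index_ne_zero_of_finite)
          by_contra h6
          have h7 : Nat.card (centralizer ({p} : Set X)) * (centralizer ({p} : Set X)).index ≤ 8 * 2 :=
            Nat.mul_le_mul (by omega) h4
          omega
        have hcardP : Nat.card (zpowers p) ≤ 4 := by
          rw [Nat.card_zpowers]
          apply Nat.le_of_dvd (by norm_num)
          apply orderOf_dvd_of_pow_eq_one
          rw [show 4 = 2 * 2 by norm_num, pow_mul, h, hzmem.2]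
        have hnle : ¬ centralizer ({p} : Set X) ≤ zpowers p := by
          intro hle
          have := Nat.card_le_card_of_injective _ (Subgroup.inclusion_injective hle)
          omega
        obtain ⟨y, hyC, hyP⟩ := SetLike.not_le_iff_exists.mp hnle
        have hyc : p * y = y * p := by
          rw [mem_centralizer_singleton_iff] at hyC
          exact hyC.symm
        have hzP : ∀ w ∈ om X, w ∈ zpowers p := by
          intro w hw
          rcases hom w hw with h5 | h5
          · rw [h5]; exact one_mem _
          · rw [h5, ← h]; exact pow_mem (mem_zpowers p) 2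
        rcases hsq' y with h5 | h5
        · exact ⟨y, h5, fun h6 => hyP (hzP y h6)⟩
        · refine ⟨p * y, ?_, ?_⟩
          · rw [(show Commute p y from hyc).mul_pow, h, h5, ← pow_two]; exact hzmem.2
          · intro h6
            apply hyP
            have h7 : y = p⁻¹ * (p * y) := by group
            rw [h7]
            exact mul_mem (inv_mem (mem_zpowers p)) (hzP _ h6)
    -- the four-group
    obtain ⟨hform, hMab, hM2⟩ := sup_props (X := X) a ha2
    let M : Subgroup X := om X ⊔ zpowers a
    haveI hMn : M.Normal := normal_sup_zpowers (om X) (fun g => hcomm a g)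
    have hMc : Nat.card M = 4 := by
      show Nat.card (om X ⊔ zpowers a : Subgroup X) = 4
      rw [card_sup_zpowers (om X) haZ (by rw [ha2]; exact one_mem _), h2]
    have hOM : om X ≤ M := le_sup_left
    have haM : a ∈ M := (le_sup_right : zpowers a ≤ om X ⊔ zpowers a) (mem_zpowers a)
    set C : Subgroup X := centralizer ({a} : Set X) with hC
    have hCmem : ∀ y, y ∈ C ↔ a * y = y * a := by
      intro y
      rw [hC, mem_centralizer_singleton_iff]
      exact ⟨fun h => h.symm, fun h => h.symm⟩
    -- involutions in `C` lie in `M`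
    have hinvC : ∀ y ∈ C, y ^ 2 = 1 → y ∈ M := by
      intro y hyC hy2
      refine add_invol H.hX H.hs M hMab hM2 hMc hy2 ?_ (fun g => hOM (hcomm y g))
      intro b hb
      obtain ⟨w, hw, h4 | h4⟩ := hform b hb <;> rw [h4]
      · exact (mem_center_iff.mp hw.1 y).symm
      · have h5 := (hCmem y).mp hyC
        calc w * a * y = w * (a * y) := by group
          _ = w * (y * a) := by rw [h5]
          _ = (w * y) * a := by group
          _ = (y * w) * a := by rw [(mem_center_iff.mp hw.1 y)]
          _ = y * (w * a) := by group
    have hMC : M ≤ C := by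
      intro b hb
      rw [hCmem]
      exact hMab a haM b hb
    -- `C` has index two
    have hCi : C.index = 2 := by
      have h4 : C.index ≤ 2 := hidx a
      have h5 : C.index ≠ 1 := by
        intro h6
        have h7 : C = ⊤ := Subgroup.index_eq_one.mp h6
        apply haZ
        refine ⟨?_, ha2⟩
        rw [mem_center_iff]
        intro g
        have : g ∈ C := by rw [h7]; trivial
        exact ((hCmem g).mp this).symm
      have h6 : C.index ≠ 0 := Subgroup.index_ne_zero_of_finite
      omega
    have hCcard : Nat.card C * 2 = Nat.card X := by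
      rw [← hCi]; exact Subgroup.card_mul_index C
    -- bound on the order
    have hn3 : n = 2 := by
      by_contra hne
      have hbig : 128 ≤ Nat.card X := by
        rw [hn]
        calc 128 = 2 ^ (2 * 3 + 1) := by norm_num
          _ ≤ 2 ^ (2 * n + 1) := Nat.pow_le_pow_right (by norm_num) (by omega)
      have hCbig : 4 < Nat.card C := by omega
      have hnle : ¬ C ≤ M := by
        intro hle
        have := Nat.card_le_card_of_injective _ (Subgroup.inclusion_injective hle)
        omega
      obtain ⟨x, hxC, hxM⟩ := SetLike.not_le_iff_exists.mp hnle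
      have hx2 : x ^ 2 = zz := by
        rcases hsq' x with h4 | h4
        · exact absurd (hinvC x hxC h4) hxM
        · exact h4
      -- a third element
      let D : Subgroup X := C ⊓ centralizer ({x} : Set X)
      have hDi : D.index ≤ 4 := by
        calc D.index ≤ C.index * (centralizer ({x} : Set X)).index := Subgroup.index_inf_le
          _ ≤ 2 * 2 := Nat.mul_le_mul (by omega) (hidx x)
      have hDcard : 32 ≤ Nat.card D := by
        have h4 := Subgroup.card_mul_index D
        by_contra h5
        have h6 : Nat.card D * D.index ≤ 31 * 4 := Nat.mul_le_mul (by omega) hDi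
        omega
      have hz2M : x ^ 2 ∈ M := by rw [hx2]; exact hOM hzmem
      have hHc : Nat.card (M ⊔ zpowers x : Subgroup X) = 8 := by
        rw [card_sup_zpowers M hxM hz2M, hMc]
      have hnle2 : ¬ D ≤ (M ⊔ zpowers x) := by
        intro hle
        have := Nat.card_le_card_of_injective _ (Subgroup.inclusion_injective hle)
        omega
      obtain ⟨y, hyD, hyH⟩ := SetLike.not_le_iff_exists.mp hnle2
      have hyC : y ∈ C := hyD.1
      have hyx : x * y = y * x := by
        have h4 : y ∈ centralizer ({x} : Set X) := hyD.2
        rw [mem_centralizer_singleton_iff] at h4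
        exact h4.symm
      have hyM : y ∉ M := fun h => hyH ((le_sup_left : M ≤ M ⊔ zpowers x) h)
      have hy2 : y ^ 2 = zz := by
        rcases hsq' y with h4 | h4
        · exact absurd (hinvC y hyC h4) hyM
        · exact h4
      have hxy2 : (x * y) ^ 2 = 1 := by
        rw [(show Commute x y from hyx).mul_pow, hx2, hy2, ← pow_two]; exact hzmem.2
      have hxyM := hinvC (x * y) (mul_mem hxC hyC) hxy2
      apply hyH
      have h7 : y = x⁻¹ * (x * y) := by group
      rw [h7]
      exact mul_mem (inv_mem ((le_sup_right : zpowers x ≤ M ⊔ zpowers x) (mem_zpowers x)))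
        ((le_sup_left : M ≤ M ⊔ zpowers x) hxyM)
    subst hn3
    have hX32 : Nat.card X = 32 := by rw [hn]; norm_num
    refine ⟨hX32, ?_⟩
    have hCc : Nat.card C = 16 := by omega
    -- counting
    have hcount : Nat.card {x : X // x ^ 2 = 1} = 12 := by
      rw [Nat.card_eq_fintype_card, Fintype.card_subtype]
      have hsplit : (Finset.univ.filter (fun x : X => x ^ 2 = 1)) =
          (Finset.univ.filter (fun x : X => x ∈ M)) ∪
            ((Finset.univ.filter (fun x : X => x ∉ C)).filter (fun x => x ^ 2 = 1)) := by
        ext x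
        simp only [Finset.mem_filter, Finset.mem_univ, true_and, Finset.mem_union]
        constructor
        · intro hx
          by_cases hxC : x ∈ C
          · exact Or.inl (hinvC x hxC hx)
          · exact Or.inr ⟨hxC, hx⟩
        · rintro (hx | hx)
          · exact hM2 x hx
          · exact hx.2
      have hdisj : Disjoint (Finset.univ.filter (fun x : X => x ∈ M))
          ((Finset.univ.filter (fun x : X => x ∉ C)).filter (fun x => x ^ 2 = 1)) := by
        rw [Finset.disjoint_left]
        intro x hx hx'
        simp only [Finset.mem_filter, Finset.mem_univ, true_and] at hx hx'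
        exact hx'.1 (hMC hx)
      rw [hsplit, Finset.card_union_of_disjoint hdisj]
      have hMcard : (Finset.univ.filter (fun x : X => x ∈ M)).card = 4 := by
        rw [← hMc, Nat.card_eq_fintype_card, Fintype.card_subtype]
      have hBcard : (Finset.univ.filter (fun x : X => x ∉ C)).card = 16 := by
        have h4 : (Finset.univ.filter (fun x : X => x ∈ C)).card = 16 := by
          rw [← hCc, Nat.card_eq_fintype_card, Fintype.card_subtype]
        have h5 := Finset.card_filter_add_card_filter_not (s := (Finset.univ : Finset X)) (fun x : X => x ∈ C)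
        rw [Finset.card_univ, ← Nat.card_eq_fintype_card, hX32, h4] at h5
        omega
      have hpair : ((Finset.univ.filter (fun x : X => x ∉ C)).filter (fun x => x ^ 2 = 1)).card =
          ((Finset.univ.filter (fun x : X => x ∉ C)).filter (fun x => ¬ x ^ 2 = 1)).card := by
        have hxa : ∀ x : X, x ∉ C → (x * a) ^ 2 = x ^ 2 * zz := by
          intro x hxC
          rw [sq_mul_of_central (om_le_center (hcomm a x)), ha2, mul_one]
          congr 1
          rcases hcomm' a x with h4 | h4
          · exfalso
            apply hxC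
            rw [hCmem]
            exact commutatorElement_eq_one_iff_mul_comm.mp h4
          · exact h4
        have hxaC : ∀ x : X, x ∉ C → x * a ∉ C := by
          intro x hxC h4
          apply hxC
          have h5 : x = (x * a) * a⁻¹ := by group
          rw [h5]
          exact mul_mem h4 (inv_mem (hMC haM))
        have hinvol : ∀ x : X, x * a * a = x := by
          intro x
          rw [mul_assoc, ← pow_two, ha2, mul_one]
        refine Finset.card_nbij' (fun x => x * a) (fun x => x * a) ?_ ?_ ?_ ?_
        · intro x hx
          simp only [Finset.coe_filter, Finset.mem_filter, Finset.mem_univ, true_and, Set.mem_ofPred_eq] at hx ⊢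
          refine ⟨hxaC x hx.1, ?_⟩
          rw [hxa x hx.1, hx.2, one_mul]
          exact hzz1
        · intro x hx
          simp only [Finset.coe_filter, Finset.mem_filter, Finset.mem_univ, true_and, Set.mem_ofPred_eq] at hx ⊢
          refine ⟨hxaC x hx.1, ?_⟩
          rw [hxa x hx.1]
          rcases hsq' x with h4 | h4
          · exact absurd h4 hx.2
          · rw [h4]; exact hzz2
        · intro x _
          exact hinvol x
        · intro x _
          exact hinvol x
      have hsum := Finset.card_filter_add_card_filter_not (s := Finset.univ.filter (fun x : X => x ∉ C)) (fun x : X => x ^ 2 = 1)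
      rw [hBcard] at hsum
      omega
    have h5 := card_order_two_add_one (X := X)
    omega

end

end Cfsg.Agent.Lib.Scn3
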