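import Cfsg.Agent.Lib.Scn3.Triv

/-!
# `A` trivial on `Ω₁(Z(X))` of order four: `X` is special of order 64
-/

set_option autoImplicit false
set_option linter.style.haveILetI false
set_option linter.unusedSectionVars false

namespace Cfsg.Agent.Lib.Scn3

open Subgroup
open scoped commutatorElement
open Cfsg.Agent.Lib.PGroup.Critical (omegaCentralMod mem_omegaCentralMod exists_mem_central_mod normal_sup_zpowers card_sup_zpowers)

variable {X : Type*} [Group X]

/-- A finite set with an action of a group of odd order, without fixed points, has size different from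
`1`, `2`, `4`. -/
theorem card_ne_of_no_fixed {B Y : Type*} [Group B] [Finite B] [MulAction B Y] [DecidableEq Y]
    (hB : Odd (Nat.card B)) (S : Finset Y) (hinv : ∀ a : B, ∀ y ∈ S, a • y ∈ S)
    (hnf : ∀ y ∈ S, ∃ a : B, a • y ≠ y) : S.card ≠ 1 ∧ S.card ≠ 2 ∧ S.card ≠ 4 := by
  classical
  have key : ∀ y ∈ S, ∃ O : Finset Y, O ⊆ S ∧ y ∈ O ∧ 3 ≤ O.card ∧ Odd O.card ∧
      (∀ a : B, ∀ z, z ∈ O ↔ a • z ∈ O) := by
    intro y hy
    haveI : Finite (MulAction.orbit B y) := by
      have h : MulAction.orbit B y ⊆ (S : Set Y) := by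
        rintro _ ⟨a, rfl⟩
        exact hinv a y hy
      exact Set.Finite.subset S.finite_toSet h
    letI : Fintype (MulAction.orbit B y) := Fintype.ofFinite _
    letI : Fintype B := Fintype.ofFinite B
    have hdvd : Nat.card (MulAction.orbit B y) ∣ Nat.card B := by
      have h := MulAction.card_orbit_mul_card_stabilizer_eq_card_group B y
      simp only [← Nat.card_eq_fintype_card] at h
      exact ⟨_, h.symm⟩
    refine ⟨(MulAction.orbit B y).toFinset, ?_, ?_, ?_, ?_, ?_⟩
    · intro z hz
      rw [Set.mem_toFinset] at hz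
      obtain ⟨a, rfl⟩ := hz
      exact hinv a y hy
    · rw [Set.mem_toFinset]
      exact MulAction.mem_orbit_self y
    · have hodd : Odd (Nat.card (MulAction.orbit B y)) := Odd.of_dvd_nat hB hdvd
      rw [Set.toFinset_card, ← Nat.card_eq_fintype_card]
      obtain ⟨a, ha⟩ := hnf y hy
      have hone : 1 < Nat.card (MulAction.orbit B y) := by
        rw [Finite.one_lt_card_iff_nontrivial]
        refine ⟨⟨⟨y, MulAction.mem_orbit_self y⟩, ⟨a • y, MulAction.mem_orbit y a⟩, ?_⟩⟩
        intro h
        exact ha (congrArg Subtype.val h).symm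
      obtain ⟨k, hk⟩ := hodd
      omega
    · rw [Set.toFinset_card, ← Nat.card_eq_fintype_card]
      exact Odd.of_dvd_nat hB hdvd
    · intro a z
      rw [Set.mem_toFinset, Set.mem_toFinset]
      constructor
      · rintro ⟨b, rfl⟩
        exact ⟨a * b, by simp [mul_smul]⟩
      · rintro ⟨b, hb⟩
        refine ⟨a⁻¹ * b, ?_⟩
        have hb' : b • y = a • z := hb
        show (a⁻¹ * b) • y = z
        rw [mul_smul, hb', inv_smul_smul]
  have hsmall : ∀ y ∈ S, 3 ≤ S.card := by
    intro y hy
    obtain ⟨O, hOS, -, hO3, -, -⟩ := key y hy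
    exact hO3.trans (Finset.card_le_card hOS)
  refine ⟨fun h => ?_, fun h => ?_, fun h => ?_⟩
  · obtain ⟨y, hy⟩ := Finset.card_pos.mp (by omega : 0 < S.card)
    have := hsmall y hy
    omega
  · obtain ⟨y, hy⟩ := Finset.card_pos.mp (by omega : 0 < S.card)
    have := hsmall y hy
    omega
  · obtain ⟨y, hy⟩ := Finset.card_pos.mp (by omega : 0 < S.card)
    obtain ⟨O, hOS, -, hO3, hOodd, hOinv⟩ := key y hy
    have hle := Finset.card_le_card hOS
    have hOc : O.card = 3 := by
      obtain ⟨k, hk⟩ := hOodd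
      omega
    have hdiff : (S \ O).card = 1 := by
      rw [Finset.card_sdiff_of_subset hOS]
      omega
    obtain ⟨z, hz⟩ := Finset.card_eq_one.mp hdiff
    have hzm : z ∈ S \ O := by rw [hz]; exact Finset.mem_singleton_self z
    rw [Finset.mem_sdiff] at hzm
    obtain ⟨a, ha⟩ := hnf z hzm.1
    apply ha
    have h1 : a • z ∈ S \ O := by
      rw [Finset.mem_sdiff]
      refine ⟨hinv a z hzm.1, fun h2 => hzm.2 ((hOinv a z).mpr h2)⟩
    rw [hz, Finset.mem_singleton] at h1
    exact h1

/-- Counting elements of order two. -/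
theorem card_order_two_add_one [Finite X] : Nat.card {x : X // orderOf x = 2} + 1 = Nat.card {x : X // x ^ 2 = 1} := by
  classical
  letI : Fintype X := Fintype.ofFinite X
  rw [Nat.card_eq_fintype_card, Nat.card_eq_fintype_card, Fintype.card_subtype, Fintype.card_subtype]
  have h : (Finset.univ.filter (fun x : X => x ^ 2 = 1)) = insert 1 (Finset.univ.filter (fun x : X => orderOf x = 2)) := by
    ext x
    simp only [Finset.mem_filter, Finset.mem_univ, true_and, Finset.mem_insert]
    constructor
    · intro hx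
      by_cases h1 : x = 1
      · exact Or.inl h1
      · exact Or.inr (orderOf_eq_prime hx h1)
    · rintro (rfl | hx)
      · simp
      · rw [← hx]; exact pow_orderOf_eq_one x
  rw [h, Finset.card_insert_of_notMem]
  simp

/-- The action of a subgroup of `MulAut X` on a quotient by an invariant normal subgroup. -/
@[instance_reducible] noncomputable def quotAct (A : Subgroup (MulAut X)) (W : Subgroup X) [W.Normal]
    (hW : ∀ φ : MulAut X, ∀ w ∈ W, φ w ∈ W) : MulAction A (X ⧸ W) where
  smul φ y := QuotientGroup.map W W ((φ : MulAut X) : X →* X) (fun w hw => hW _ w hw) y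
  one_smul := by
    intro y
    induction y using QuotientGroup.induction_on with
    | H x => rfl
  mul_smul := by
    intro a b y
    induction y using QuotientGroup.induction_on with
    | H x => rfl

theorem quotAct_mk (A : Subgroup (MulAut X)) (W : Subgroup X) [W.Normal]
    (hW : ∀ φ : MulAut X, ∀ w ∈ W, φ w ∈ W) (φ : A) (x : X) :
    (quotAct A W hW).toSMul.smul φ (x : X ⧸ W) = (((φ : MulAut X) x : X) : X ⧸ W) := rfl

section

variable [Finite X] {A : Subgroup (MulAut X)}

theorem case_two (H : Hyp A) (hT : ∀ φ ∈ A, ∀ w ∈ om X, φ w = w) (h4 : Nat.card (om X) = 4) :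
    Cfsg.IsSpecial 2 X ∧ Nat.card X = 64 ∧ Nat.card {x : X // orderOf x = 2} = 3 ∧
      ∀ x : X, orderOf x = 2 → x ∈ center X := by
  classical
  letI instX : Fintype X := Fintype.ofFinite X
  haveI : Fact (Nat.Prime 2) := ⟨Nat.prime_two⟩
  obtain ⟨h1, h2, h3, hsq, hcomm⟩ := triv_main H hT (Or.inr h4)
  have hab : ∀ a ∈ om X, ∀ b ∈ om X, a * b = b * a := fun a _ b hb => (mem_center_iff.mp hb.1 a)
  have hinv : ∀ y : X, y ^ 2 = 1 → y ∈ om X := by
    intro y hy
    exact add_invol H.hX H.hs (om X) hab (fun a ha => ha.2) h4 hy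
      (fun a ha => (mem_center_iff.mp ha.1 y).symm) (fun g => hcomm y g)
  have hspecial : Cfsg.IsSpecial 2 X := ⟨H.hX, h3.trans h2.symm, h1.trans h2.symm⟩
  have hcent : ∀ x : X, orderOf x = 2 → x ∈ center X := by
    intro x hx
    rw [h2]
    exact hinv x (by rw [← hx]; exact pow_orderOf_eq_one x)
  have hinvcard : Nat.card {x : X // orderOf x = 2} = 3 := by
    have h5 := card_order_two_add_one (X := X)
    have h6 : Nat.card {x : X // x ^ 2 = 1} = Nat.card (om X) := by
      apply Nat.card_congr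
      exact Equiv.subtypeEquivRight (fun x => ⟨hinv x, fun h => h.2⟩)
    omega
  refine ⟨hspecial, ?_, hinvcard, hcent⟩
  -- the quotient
  have hle16 : Nat.card (X ⧸ om X) ≤ 16 :=
    Cfsg.Agent.Lib.PGroup.AnisoQuad.card_quotient_le (om X)
      (fun w hw x => (mem_center_iff.mp hw.1 x).symm) hsq (fun x y => hcomm x y)
      (fun w hw => hw.2) h4 hinv
  have hcardX : Nat.card X = Nat.card (X ⧸ om X) * 4 := by
    rw [← h4]
    exact Subgroup.card_eq_card_quotient_mul_card_subgroup (om X)
  letI instY : Fintype (X ⧸ om X) := Fintype.ofFinite _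
  letI instA : MulAction A (X ⧸ om X) := quotAct A (om X) (fun φ _ hw => aut_mem_om φ hw)
  have hsmul : ∀ (φ : A) (x : X), φ • (x : X ⧸ om X) = (((φ : MulAut X) x : X) : X ⧸ om X) := fun φ x => rfl
  -- squares on the quotient
  let q : X ⧸ om X → X := fun y => (Quotient.out y) ^ 2
  have hq : ∀ x : X, q (x : X ⧸ om X) = x ^ 2 := by
    intro x
    have h5 : ((Quotient.out (x : X ⧸ om X) : X) : X ⧸ om X) = (x : X ⧸ om X) := Quotient.out_eq _
    have h6 : x⁻¹ * Quotient.out (x : X ⧸ om X) ∈ om X := QuotientGroup.eq.mp h5.symm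
    have h7 : Quotient.out (x : X ⧸ om X) = x * (x⁻¹ * Quotient.out (x : X ⧸ om X)) := by group
    show (Quotient.out (x : X ⧸ om X)) ^ 2 = x ^ 2
    rw [h7]
    have hc : Commute x (x⁻¹ * Quotient.out (x : X ⧸ om X)) := (mem_center_iff.mp h6.1 x)
    rw [hc.mul_pow, h6.2, mul_one]
  have hqmem : ∀ y, q y ∈ om X := fun y => hsq _
  have hq1 : ∀ y, q y = 1 → y = 1 := by
    intro y hy
    obtain ⟨x, rfl⟩ := QuotientGroup.mk_surjective y
    rw [hq] at hy
    exact (QuotientGroup.eq_one_iff x).mpr (hinv x hy)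
  have hqinv : ∀ (φ : A) y, q (φ • y) = q y := by
    intro φ y
    obtain ⟨x, rfl⟩ := QuotientGroup.mk_surjective y
    rw [hsmul, hq, hq, ← map_pow]
    exact hT φ.1 φ.2 _ (hsq x)
  have hnf : ∀ y : X ⧸ om X, y ≠ 1 → ∃ φ : A, φ • y ≠ y := by
    intro y hy
    obtain ⟨x, rfl⟩ := QuotientGroup.mk_surjective y
    by_contra hcon
    push Not at hcon
    have hxN : x ∈ Nn X := ⟨fun g => h2 ▸ hcomm x g, h2 ▸ hsq x⟩
    apply hy
    rw [QuotientGroup.eq_one_iff, ← h2]
    refine mem_center_of_fixed H hT hxN ?_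
    intro φ hφ
    have h5 := hcon ⟨φ, hφ⟩
    rw [hsmul] at h5
    have h6 : (x : X)⁻¹ * φ x ∈ om X := by
      exact QuotientGroup.eq.mp h5.symm
    refine fix_of_sq_fix (odd_orderOf_of_mem H.hA hφ) ?_
    have h7 : φ x = x * (x⁻¹ * φ x) := by group
    have h8 : φ (φ x) = φ x * (x⁻¹ * φ x) := by
      conv_lhs => rw [h7, map_mul, hT φ hφ _ h6]
    rw [h8]
    calc φ x * (x⁻¹ * φ x) = x * (x⁻¹ * φ x) * (x⁻¹ * φ x) := by rw [← h7]
      _ = x * (x⁻¹ * φ x) ^ 2 := by rw [pow_two]; group
      _ = x := by rw [h6.2, mul_one]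
  -- the fibres
  let S : X → Finset (X ⧸ om X) := fun w => Finset.univ.filter (fun y => q y = w)
  have hS : ∀ w : X, w ≠ 1 → (S w).card ≠ 1 ∧ (S w).card ≠ 2 ∧ (S w).card ≠ 4 := by
    intro w hw
    refine card_ne_of_no_fixed H.hA (S w) ?_ ?_
    · intro a y hy
      simp only [S, Finset.mem_filter, Finset.mem_univ, true_and] at hy ⊢
      rw [hqinv, hy]
    · intro y hy
      simp only [S, Finset.mem_filter, Finset.mem_univ, true_and] at hy
      refine hnf y ?_
      rintro rfl
      apply hw
      rw [← hy]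
      have := hq 1
      simpa using this
  -- the three non-identity elements of `Ω`
  let T : Finset X := (Finset.univ.filter (fun x : X => x ∈ om X)).erase 1
  have hTc : T.card = 3 := by
    have h5 : (Finset.univ.filter (fun x : X => x ∈ om X)).card = 4 := by
      rw [← h4, Nat.card_eq_fintype_card, Fintype.card_subtype]
    rw [Finset.card_erase_of_mem (by simp [one_mem]), h5]
  have hsum : (Finset.univ : Finset (X ⧸ om X)).card = 1 + ∑ w ∈ T, (S w).card := by
    have h5 : (Finset.univ.erase (1 : X ⧸ om X)).card = ∑ w ∈ T, (S w).card := by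
      rw [Finset.card_eq_sum_card_fiberwise (f := q) (t := T)]
      · refine Finset.sum_congr rfl ?_
        intro w hw
        have hw1 : w ≠ 1 := (Finset.mem_erase.mp hw).1
        congr 1
        ext y
        simp only [S, Finset.mem_filter, Finset.mem_univ, true_and, Finset.mem_erase, ne_eq, and_true]
        constructor
        · exact fun h => h.2
        · intro h
          refine ⟨?_, h⟩
          rintro rfl
          apply hw1
          rw [← h]
          have := hq 1
          simpa using this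
      · intro y hy
        simp only [T, Finset.coe_erase, Set.mem_sdiff]
        refine ⟨by simpa using hqmem y, ?_⟩
        intro h5
        have h6 : q y = 1 := h5
        exact (Finset.mem_erase.mp hy).1 (hq1 y h6)
    rw [← h5, Finset.card_erase_of_mem (Finset.mem_univ _)]
    have : 0 < (Finset.univ : Finset (X ⧸ om X)).card := Finset.card_pos.mpr ⟨1, Finset.mem_univ _⟩
    omega
  have hvc : (Finset.univ : Finset (X ⧸ om X)).card = Nat.card (X ⧸ om X) := by
    rw [Finset.card_univ, Nat.card_eq_fintype_card]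
  -- two distinct nontrivial squares
  obtain ⟨a, b, hab1, hab2, habne, hasq, hbsq⟩ : ∃ a b : X, a ≠ 1 ∧ b ≠ 1 ∧ a ≠ b ∧ (∃ x : X, x ^ 2 = a) ∧ ∃ x : X, x ^ 2 = b := by
    by_contra hcon
    push Not at hcon
    have hclosure : ∀ x y : X, ⁅y, x⁆ = (x ^ 2 * y ^ 2)⁻¹ * (x * y) ^ 2 := by
      intro x y
      rw [sq_mul_of_central (om_le_center (hcomm y x))]
      group
    by_cases hallsq : ∀ x : X, x ^ 2 = 1
    · have : Nat.card (om X) ≤ 1 := by
        have h5 : _root_.commutator X = ⊥ := by
          rw [eq_bot_iff, _root_.commutator_def, Subgroup.commutator_le]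
          intro x _ y _
          rw [Subgroup.mem_bot, hclosure y x, hallsq, hallsq, hallsq]
          simp
        rw [← h1, h5]
        simp
      omega
    · push Not at hallsq
      obtain ⟨x₀, hx₀⟩ := hallsq
      have hall : ∀ x : X, x ^ 2 ∈ zpowers (x₀ ^ 2) := by
        intro x
        by_cases h5 : x ^ 2 = 1
        · rw [h5]; exact one_mem _
        · by_cases h6 : x ^ 2 = x₀ ^ 2
          · rw [h6]; exact mem_zpowers _
          · exact absurd rfl (hcon (x₀ ^ 2) (x ^ 2) hx₀ h5 (Ne.symm h6) ⟨x₀, rfl⟩ x)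
      have hle : _root_.commutator X ≤ zpowers (x₀ ^ 2) := by
        rw [_root_.commutator_def, Subgroup.commutator_le]
        intro x _ y _
        rw [hclosure y x]
        exact mul_mem (inv_mem (mul_mem (hall _) (hall _))) (hall _)
      have h5 : orderOf (x₀ ^ 2) = 2 := orderOf_eq_prime (hsq x₀).2 hx₀
      have h6 : Nat.card (om X) ≤ Nat.card (zpowers (x₀ ^ 2)) := by
        rw [← h1]
        exact Nat.card_le_card_of_injective _ (Subgroup.inclusion_injective hle)
      rw [Nat.card_zpowers, h5] at h6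
      omega
  obtain ⟨xa, hxa⟩ := hasq
  obtain ⟨xb, hxb⟩ := hbsq
  have haT : a ∈ T := by
    simp only [T, Finset.mem_erase, Finset.mem_filter, Finset.mem_univ, true_and]
    exact ⟨hab1, hxa ▸ hsq xa⟩
  have hbT : b ∈ T := by
    simp only [T, Finset.mem_erase, Finset.mem_filter, Finset.mem_univ, true_and]
    exact ⟨hab2, hxb ▸ hsq xb⟩
  have hbT' : b ∈ T.erase a := Finset.mem_erase.mpr ⟨Ne.symm habne, hbT⟩
  have hcard1 : ((T.erase a).erase b).card = 1 := by
    rw [Finset.card_erase_of_mem hbT', Finset.card_erase_of_mem haT, hTc]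
  obtain ⟨c, hc⟩ := Finset.card_eq_one.mp hcard1
  have hcmem : c ∈ T := by
    have : c ∈ (T.erase a).erase b := by rw [hc]; exact Finset.mem_singleton_self c
    exact Finset.mem_of_mem_erase (Finset.mem_of_mem_erase this)
  have hc1 : c ≠ 1 := (Finset.mem_erase.mp hcmem).1
  have hsum2 : ∑ w ∈ T, (S w).card = (S a).card + ((S b).card + (S c).card) := by
    rw [← Finset.add_sum_erase T _ haT, ← Finset.add_sum_erase (T.erase a) _ hbT', hc, Finset.sum_singleton]
  have hSa : (S a).card ≠ 0 := by
    rw [Finset.card_ne_zero]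
    refine ⟨(xa : X ⧸ om X), ?_⟩
    simp only [S, Finset.mem_filter, Finset.mem_univ, true_and]
    rw [hq, hxa]
  have hSb : (S b).card ≠ 0 := by
    rw [Finset.card_ne_zero]
    refine ⟨(xb : X ⧸ om X), ?_⟩
    simp only [S, Finset.mem_filter, Finset.mem_univ, true_and]
    rw [hq, hxb]
  obtain ⟨a1, a2, a3⟩ := hS a hab1
  obtain ⟨b1, b2, b3⟩ := hS b hab2
  obtain ⟨c1, c2, c3⟩ := hS c hc1
  obtain ⟨k, hk⟩ := IsPGroup.iff_card.mp (H.hX.to_quotient (om X))
  have hk4 : k ≤ 4 := by
    by_contra h5
    have h6 : 2 ^ 5 ≤ 2 ^ k := Nat.pow_le_pow_right (by norm_num) (by omega)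
    omega
  rw [hvc, hsum2] at hsum
  have hv16 : Nat.card (X ⧸ om X) = 16 := by
    interval_cases k <;> simp only [pow_zero, pow_one, Nat.reducePow] at hk <;> omega
  rw [hcardX, hv16]

end

end Cfsg.Agent.Lib.Scn3
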