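import Cfsg.Agent.Lib.Scn3.BB

/-!
# The case `K` of order sixteen is impossible
-/

set_option autoImplicit false
set_option linter.style.haveILetI false
set_option linter.unusedSectionVars false
set_option linter.unusedVariables false

namespace Cfsg.Agent.Lib.Scn3

open Subgroup
open scoped commutatorElement
open Cfsg.Agent.Lib.PGroup.Critical (omegaCentralMod mem_omegaCentralMod exists_mem_central_mod normal_sup_zpowers card_sup_zpowers card_eq_mul_relIndex)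

variable {X : Type*} [Group X]

section Comm

variable {B : Subgroup X} [hBn : B.Normal]

theorem comm_mem_left {b : X} (hb : b ∈ B) (n : X) : ⁅b, n⁆ ∈ B := by
  rw [commutatorElement_def]
  have h1 := hBn.conj_mem b⁻¹ (inv_mem hb) n
  have h2 : b * n * b⁻¹ * n⁻¹ = b * (n * b⁻¹ * n⁻¹) := by group
  rw [h2]
  exact mul_mem hb h1

theorem phi_mul (hab : ∀ a ∈ B, ∀ b ∈ B, a * b = b * a) {a b : X} (ha : a ∈ B) (hb : b ∈ B) (n : X) :
    ⁅a * b, n⁆ = ⁅a, n⁆ * ⁅b, n⁆ := by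
  have e : ⁅a * b, n⁆ = a * ⁅b, n⁆ * a⁻¹ * ⁅a, n⁆ := by
    simp only [commutatorElement_def]; group
  have h1 : a * ⁅b, n⁆ = ⁅b, n⁆ * a := hab a ha _ (comm_mem_left hb n)
  rw [e, h1, mul_inv_cancel_right]
  exact hab _ (comm_mem_left hb n) _ (comm_mem_left ha n)

theorem phi_sq (hab : ∀ a ∈ B, ∀ b ∈ B, a * b = b * a) {b : X} (hb : b ∈ B) (n : X) :
    ⁅b ^ 2, n⁆ = ⁅b, n⁆ ^ 2 := by
  rw [pow_two, pow_two]
  exact phi_mul hab hb hb n

theorem phi_phi (hab : ∀ a ∈ B, ∀ b ∈ B, a * b = b * a) {b n : X} (hb : b ∈ B) (hn : n ^ 2 ∈ B) :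
    ⁅⁅b, n⁆, n⁆ = ⁅b, n⁆ ^ 2 := by
  have hcB : n * b⁻¹ * n⁻¹ ∈ B := hBn.conj_mem b⁻¹ (inv_mem hb) n
  have h1 : ⁅b, n⁆ = b * (n * b⁻¹ * n⁻¹) := by
    rw [commutatorElement_def]; group
  have h3 : n * (n * b⁻¹ * n⁻¹)⁻¹ * n⁻¹ = b := by
    have h4 : n ^ 2 * b = b * n ^ 2 := hab _ hn _ hb
    rw [pow_two] at h4
    calc n * (n * b⁻¹ * n⁻¹)⁻¹ * n⁻¹ = (n * n * b) * (n * n)⁻¹ := by group
      _ = b := by rw [h4]; group
  have h2 : ⁅n * b⁻¹ * n⁻¹, n⁆ = (n * b⁻¹ * n⁻¹) * b := by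
    calc ⁅n * b⁻¹ * n⁻¹, n⁆ = (n * b⁻¹ * n⁻¹) * (n * (n * b⁻¹ * n⁻¹)⁻¹ * n⁻¹) := by
          rw [commutatorElement_def]; group
      _ = (n * b⁻¹ * n⁻¹) * b := by rw [h3]
  rw [h1, phi_mul hab hb hcB, ← h1, h2, h1, pow_two]
  rw [hab _ hcB _ hb]

end Comm

variable [Finite X]

/-- All data for the last part of the proof. -/
structure Bd (A : Subgroup (MulAut X)) (σ : MulAut X) (μ : X →* (om X →* om X)) (B : Subgroup X) (d : ℕ) : Prop where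
  S : Sig A σ
  h16 : Nat.card (Kk X) = 16
  hμ : ∀ (x k : X) (hk : k ∈ Kk X), ((μ x ⟨k ^ 2, hk.2⟩ : om X) : X) = ⁅k, x⁆
  hτ : ∀ x, Tri.tau (sW σ) (μ x) = 1
  hB : GoodB σ B
  hcent : centralizer (B : Set X) ≤ B
  hd : PiD B d
  h4d : 4 ∣ d

namespace Bd

variable {A : Subgroup (MulAut X)} {σ : MulAut X} {μ : X →* (om X →* om X)} {B : Subgroup X} {d : ℕ}

theorem fourth (D : Bd A σ μ B d) {w : X} (hw : w ∈ om X) : ∃ b ∈ B, b ^ 4 = w := by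
  obtain ⟨t, ht⟩ := D.h4d
  obtain ⟨c, hc, hcw⟩ := D.hd.h2 w hw
  refine ⟨c ^ t, pow_mem hc t, ?_⟩
  rw [← pow_mul, mul_comm, ← ht]
  exact hcw

theorem inv_B (D : Bd A σ μ B d) {y : X} (hy : y ∈ B) (hy2 : y ^ 2 = 1) : y ∈ om X :=
  haveI := D.hB.hn
  D.S.invol_normal B D.hB.hab D.hB.om_le hy hy2

theorem pow4 {y : X} : (y ^ 2) ^ 2 = y ^ 4 := by rw [← pow_mul]

theorem om2 (D : Bd A σ μ B d) {b : X} (hb : b ∈ B) (hb4 : b ^ 4 = 1) : b ∈ Kk X := by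
  let L : Subgroup X :=
    { carrier := {b | b ∈ B ∧ b ^ 4 = 1}
      one_mem' := ⟨one_mem _, one_pow _⟩
      mul_mem' := by
        rintro a b ⟨ha, ha4⟩ ⟨hb, hb4⟩
        refine ⟨mul_mem ha hb, ?_⟩
        rw [D.hB.pow_mul ha hb, ha4, hb4, one_mul]
      inv_mem' := by
        rintro a ⟨ha, ha4⟩
        exact ⟨inv_mem ha, by rw [inv_pow, ha4, inv_one]⟩ }
  have hW : om X ≤ L := by
    intro w hw
    refine ⟨D.hB.om_le hw, ?_⟩
    rw [← pow4, hw.2, one_pow]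
  have hLab : ∀ a ∈ L, ∀ b ∈ L, a * b = b * a := fun a ha b hb => D.hB.hab a ha.1 b hb.1
  have hcnt := D.S.sq_count L hLab hW (fun a ha => D.inv_B (pow_mem ha.1 2) (by rw [pow4]; exact ha.2))
    (fun a ha h2 => D.inv_B ha.1 h2)
  have hKL : Kk X ≤ L := by
    intro k hk
    refine ⟨D.hB.hK hk, ?_⟩
    rw [← pow4, hk.2.2]
  have : Kk X = L := Subgroup.eq_of_le_of_card_ge hKL (by rw [D.h16]; exact hcnt.1)
  rw [this]
  exact ⟨hb, hb4⟩

theorem self_mu (D : Bd A σ μ B d) {n : X} (hn : n ^ 2 ∈ B) (w : om X) : μ n (μ n w) = μ n w := by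
  haveI := D.hB.hn
  obtain ⟨b, hb, hb4⟩ := D.fourth w.2
  have ha2 : (b ^ 2) ^ 2 = w.1 := by rw [pow4]; exact hb4
  have haB : b ^ 2 ∈ B := pow_mem hb 2
  have haK : b ^ 2 ∈ Kk X := D.om2 haB (by
    rw [← pow4, ha2]; exact w.2.2)
  have e0 : w = ⟨(b ^ 2) ^ 2, haK.2⟩ := Subtype.ext ha2.symm
  have huB : ⁅b, n⁆ ∈ B := comm_mem_left hb n
  have e1 : ((μ n w : om X) : X) = ⁅b, n⁆ ^ 2 := by
    rw [e0, D.hμ n _ haK, phi_sq D.hB.hab hb]
  have hu2 : ⁅b, n⁆ ^ 2 ∈ om X := e1 ▸ (μ n w).2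
  have huK : ⁅b, n⁆ ∈ Kk X := D.om2 huB (by
    rw [← pow4]; exact hu2.2)
  have e2 : μ n w = ⟨⁅b, n⁆ ^ 2, huK.2⟩ := Subtype.ext e1
  rw [e2]
  apply Subtype.ext
  rw [D.hμ n _ huK]
  exact phi_phi D.hB.hab hb hn

theorem mu_one (D : Bd A σ μ B d) {n : X} (hn : n ^ 2 ∈ B) (w : om X) : μ n w = 1 := by
  by_cases h : ∃ v : om X, v ≠ 1 ∧ μ n v = 1
  · obtain ⟨v, hv, hm⟩ := h
    exact D.S.tri.eq_one_of_tau (D.hτ n) hv hm w
  · exfalso
    push Not at h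
    obtain ⟨u, hu⟩ := D.S.tri.exists_ne_of_tau (D.hτ n) D.S.exists_ne_one
    apply hu
    have e : μ n (μ n u * u) = 1 := by
      rw [map_mul, D.self_mu hn]
      exact D.S.tri.mul_self _
    have e2 : μ n u * u = 1 := by
      by_contra h3
      exact h _ h3 e
    exact (eq_of_mul_inv_eq_one (by rwa [D.S.tri.inv_eq]))

theorem comm_K (D : Bd A σ μ B d) {n : X} (hn : n ^ 2 ∈ B) {k : X} (hk : k ∈ Kk X) : ⁅k, n⁆ = 1 := by
  have h := D.hμ n k hk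
  rw [D.mu_one hn] at h
  exact h.symm

theorem comm_om (D : Bd A σ μ B d) {n : X} (hn : n ^ 2 ∈ B) {b : X} (hb : b ∈ B) : ⁅b, n⁆ ∈ om X := by
  haveI := D.hB.hn
  have key : ∀ j : ℕ, ∀ b ∈ B, ⁅b, n⁆ ^ 2 ^ j = 1 → ⁅b, n⁆ ^ 2 = 1 := by
    intro j
    induction j with
    | zero =>
      intro b _ h
      rw [pow_zero, pow_one] at h
      rw [h, one_pow]
    | succ j ih =>
      intro b hb h
      have h1 : ⁅b ^ 2, n⁆ ^ 2 ^ j = 1 := by
        rw [phi_sq D.hB.hab hb, ← pow_mul, ← pow_succ']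
        exact h
      have h2 := ih _ (pow_mem hb 2) h1
      rw [phi_sq D.hB.hab hb, pow4] at h2
      have huK := D.om2 (comm_mem_left hb n) h2
      rw [← phi_phi D.hB.hab hb hn]
      exact D.comm_K hn huK
  obtain ⟨j, hj⟩ := D.S.H.hX ⁅b, n⁆
  exact D.inv_B (comm_mem_left hb n) (key j b hb hj)

theorem exists_nu (D : Bd A σ μ B d) {n : X} (hn : n ^ 2 ∈ B) :
    ∃ ν : om X →* om X, ∀ (b : X) (hb : b ∈ B), ((ν ⟨b ^ d, D.hd.h1 b hb⟩ : om X) : X) = ⁅b, n⁆ := by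
  haveI := D.hB.hn
  let f : B →* om X := MonoidHom.mk' (fun b => ⟨b.1 ^ d, D.hd.h1 b.1 b.2⟩) (by
    intro a b
    apply Subtype.ext
    exact D.hB.pow_mul a.2 b.2 _)
  have hf : Function.Surjective f := by
    intro w
    obtain ⟨b, hb, hbw⟩ := D.hd.h2 w.1 w.2
    exact ⟨⟨b, hb⟩, Subtype.ext hbw⟩
  let g : B →* om X := MonoidHom.mk' (fun b => ⟨⁅b.1, n⁆, D.comm_om hn b.2⟩) (by
    intro a b
    apply Subtype.ext
    exact phi_mul D.hB.hab a.2 b.2 n)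
  have hker : f.ker ≤ g.ker := by
    intro b hb
    rw [MonoidHom.mem_ker] at hb ⊢
    have h1 : b.1 ^ d = 1 := congrArg Subtype.val hb
    obtain ⟨c, hc, hc2⟩ := D.hd.h3 b.1 b.2 h1
    apply Subtype.ext
    show ⁅b.1, n⁆ = 1
    rw [← hc2, phi_sq D.hB.hab hc]
    exact (D.comm_om hn hc).2
  refine ⟨f.liftOfSurjective hf ⟨g, hker⟩, ?_⟩
  intro b hb
  have h := MonoidHom.liftOfRightInverse_comp_apply f _ (Function.surjInv_eq hf) ⟨g, hker⟩ ⟨b, hb⟩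
  exact congrArg Subtype.val h

theorem psi_ker (D : Bd A σ μ B d) {n : X} (hn : n ^ 2 ∈ B) {a : X} (ha : a ∈ B) (h : a * (n * a * n⁻¹) = 1) :
    a ∈ om X := by
  haveI := D.hB.hn
  have h1 : n * a⁻¹ * n⁻¹ = a := by
    have h2 : (n * a * n⁻¹)⁻¹ = a := inv_eq_of_mul_eq_one_left h
    have h3 : n * a⁻¹ * n⁻¹ = (n * a * n⁻¹)⁻¹ := by group
    rw [h3, h2]
  have h2 : ⁅a, n⁆ = a ^ 2 := by
    rw [commutatorElement_def, pow_two]
    calc a * n * a⁻¹ * n⁻¹ = a * (n * a⁻¹ * n⁻¹) := by group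
      _ = a * a := by rw [h1]
  have h3 := D.comm_om hn ha
  rw [h2] at h3
  have h4 : a ∈ Kk X := D.om2 ha (by rw [← pow4]; exact h3.2)
  have h5 := D.comm_K hn h4
  rw [h2] at h5
  exact D.inv_B ha h5

theorem not_sq (D : Bd A σ μ B d) [hBn : B.Normal] {n : X} (hnN : n ∈ omegaCentralMod 2 B) (hnB : n ∉ B)
    {c : X} (hc : c ∈ B) : n ^ 2 ≠ c ^ 2 := by
  intro hcn
  have hW := D.hB.om_le
  have hn2 := hnN.2
  have hconj : ∀ a ∈ B, n * a * n⁻¹ ∈ B := fun a ha => hBn.conj_mem a ha n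
  let Ψ : B →* B := MonoidHom.mk' (fun a => ⟨a.1 * (n * a.1 * n⁻¹), mul_mem a.2 (hconj a.1 a.2)⟩) (by
    intro a b
    apply Subtype.ext
    show (a.1 * b.1) * (n * (a.1 * b.1) * n⁻¹) = (a.1 * (n * a.1 * n⁻¹)) * (b.1 * (n * b.1 * n⁻¹))
    have e : n * (a.1 * b.1) * n⁻¹ = (n * a.1 * n⁻¹) * (n * b.1 * n⁻¹) := by group
    rw [e]
    have hcomm : b.1 * (n * a.1 * n⁻¹) = (n * a.1 * n⁻¹) * b.1 := D.hB.hab _ b.2 _ (hconj a.1 a.2)
    calc a.1 * b.1 * (n * a.1 * n⁻¹ * (n * b.1 * n⁻¹))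
        = a.1 * (b.1 * (n * a.1 * n⁻¹)) * (n * b.1 * n⁻¹) := by simp only [mul_assoc]
      _ = a.1 * ((n * a.1 * n⁻¹) * b.1) * (n * b.1 * n⁻¹) := by rw [hcomm]
      _ = _ := by simp only [mul_assoc])
  have hkerΨ : Nat.card Ψ.ker = 4 := by
    rw [← D.S.h4]
    apply Nat.card_congr
    refine ⟨fun z => ⟨z.1.1, D.psi_ker hn2 z.1.2 (congrArg Subtype.val z.2)⟩,
      fun w => ⟨⟨w.1, hW w.2⟩, ?_⟩, fun z => rfl, fun w => rfl⟩
    rw [MonoidHom.mem_ker]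
    apply Subtype.ext
    show w.1 * (n * w.1 * n⁻¹) = 1
    have h1 : n * w.1 = w.1 * n := (mem_center_iff.mp w.2.1 n)
    rw [h1, mul_inv_cancel_right, ← pow_two]
    exact w.2.2
  have hc1 := card_ker_mul_range Ψ
  have hc2 := card_ker_mul_range (sqHom B D.hB.hab)
  rw [hkerΨ] at hc1
  rw [D.S.card_ker_sq B D.hB.hab hW] at hc2
  have hrange : Ψ.range ≤ (sqHom B D.hB.hab).range := by
    rintro _ ⟨a, rfl⟩
    have h1 : ⁅a.1⁻¹, n⁆ ∈ om X := D.comm_om hn2 (inv_mem a.2)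
    obtain ⟨t, ht, ht4⟩ := D.fourth h1
    refine ⟨⟨a.1 * t ^ 2, mul_mem a.2 (pow_mem ht 2)⟩, ?_⟩
    apply Subtype.ext
    show (a.1 * t ^ 2) ^ 2 = a.1 * (n * a.1 * n⁻¹)
    rw [D.hB.pow_mul a.2 (pow_mem ht 2), pow4, ht4, commutatorElement_def, pow_two]
    group
  have heq : Ψ.range = (sqHom B D.hB.hab).range := Subgroup.eq_of_le_of_card_ge hrange (by omega)
  have hmem : (⟨n ^ 2, hn2⟩ : B) ∈ Ψ.range := by
    rw [heq]
    exact ⟨⟨c, hc⟩, Subtype.ext hcn.symm⟩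
  obtain ⟨a', ha'⟩ := hmem
  obtain ⟨a, ha⟩ := a'
  have hΨa : a * (n * a * n⁻¹) = n ^ 2 := congrArg Subtype.val ha'
  have hBocm : B ≤ omegaCentralMod 2 B := by
    intro b hb
    exact ⟨fun g => comm_mem_left hb g, pow_mem hb 2⟩
  have hyN : a⁻¹ * n ∈ omegaCentralMod 2 B := mul_mem (inv_mem (hBocm ha)) hnN
  have hy2 : (a⁻¹ * n) ^ 2 = 1 := by
    have h1 : (a⁻¹ * n) ^ 2 = (a⁻¹ * (n * a⁻¹ * n⁻¹)) * n ^ 2 := by
      rw [pow_two, pow_two]; group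
    rw [h1, ← hΨa]
    have h2 : a⁻¹ * (n * a⁻¹ * n⁻¹) = (n * a⁻¹ * n⁻¹) * a⁻¹ :=
      D.hB.hab _ (inv_mem ha) _ (hconj _ (inv_mem ha))
    rw [h2]
    group
  have hyinv : (a⁻¹ * n)⁻¹ = a⁻¹ * n := inv_eq_of_mul_eq_one_left (by rw [← pow_two]; exact hy2)
  have hyg : ∀ g, ⁅a⁻¹ * n, g⁆ ∈ om X := by
    intro g
    have hz := hyN.1 g
    set y := a⁻¹ * n with hy
    set z := ⁅y, g⁆ with hzdef
    apply D.psi_ker hn2 hz
    -- `g y⁻¹ g⁻¹ = y⁻¹ z` squares to one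
    have e1 : g * y⁻¹ * g⁻¹ = y⁻¹ * z := by
      rw [hzdef, commutatorElement_def]; group
    have e2 : (g * y⁻¹ * g⁻¹) ^ 2 = 1 := by
      have : (g * y⁻¹ * g⁻¹) ^ 2 = g * (y ^ 2)⁻¹ * g⁻¹ := by
        rw [pow_two, pow_two]; group
      rw [this, hy2]; group
    rw [e1, hyinv, pow_two] at e2
    -- `y z y z = 1`, hence conjugate
    have e3 : y * z * y⁻¹ = n * z * n⁻¹ := by
      have h5 : a⁻¹ * (n * z * n⁻¹) = (n * z * n⁻¹) * a⁻¹ :=
        D.hB.hab _ (inv_mem ha) _ (hconj z hz)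
      calc y * z * y⁻¹ = (a⁻¹ * (n * z * n⁻¹)) * a := by rw [hy]; group
        _ = (n * z * n⁻¹) * a⁻¹ * a := by rw [h5]
        _ = n * z * n⁻¹ := by group
    have e4 : (n * z * n⁻¹) * z = 1 := by
      rw [← e3, hyinv]
      calc y * z * y * z = y * z * (y * z) := by simp only [mul_assoc]
        _ = 1 := e2
    rw [D.hB.hab _ hz _ (hconj z hz)]
    exact e4
  have hyW := D.S.invol hy2 hyg
  apply hnB
  have hfin : n = a * (a⁻¹ * n) := by group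
  rw [hfin]
  exact mul_mem ha (hW hyW)

theorem final (D : Bd A σ μ B d) : False := by
  haveI : Fact (Nat.Prime 2) := ⟨Nat.prime_two⟩
  haveI hBn := D.hB.hn
  have hW := D.hB.om_le
  have hnt : ¬ (⊤ : Subgroup X) ≤ B := by
    intro h
    obtain ⟨a, b, hab⟩ := D.S.H.hna
    exact hab (D.hB.hab a (h (mem_top a)) b (h (mem_top b)))
  haveI : (⊤ : Subgroup X).Normal := inferInstance
  obtain ⟨n, -, hnB, hn2, hng⟩ := exists_mem_central_mod D.S.H.hX B ⊤ hnt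
  have hnN : n ∈ omegaCentralMod 2 B := ⟨hng, hn2⟩
  have hσN : σ n ∈ omegaCentralMod 2 B := ocm_aut_of_inv B σ (fun b hb => (D.hB.hinv b).mpr hb) hnN
  have hn'N : n * σ n ∈ omegaCentralMod 2 B := mul_mem hnN hσN
  obtain ⟨ν, hν⟩ := D.exists_nu hn2
  let π : ∀ b, b ∈ B → om X := fun b hb => ⟨b ^ d, D.hd.h1 b hb⟩
  have hv1 : π (n ^ 2) hn2 ≠ 1 := by
    intro h
    obtain ⟨c, hc, hc2⟩ := D.hd.h3 _ hn2 (congrArg Subtype.val h)
    exact D.not_sq hnN hnB hc hc2.symm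
  have hνv : ν (π (n ^ 2) hn2) = 1 := by
    apply Subtype.ext
    rw [show ((ν (π (n ^ 2) hn2) : om X) : X) = ⁅n ^ 2, n⁆ from hν _ hn2]
    exact commutatorElement_eq_one_iff_mul_comm.mpr ((pow_succ n 2).symm.trans (pow_succ' n 2))
  have hνne : ∃ w, ν w ≠ 1 := by
    by_contra hcon
    push Not at hcon
    apply hnB
    apply D.hcent
    rw [mem_centralizer_iff]
    intro b hb
    have h1 := hν b hb
    rw [hcon] at h1
    exact commutatorElement_eq_one_iff_mul_comm.mp h1.symm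
  have hinj := D.S.tri.inj_of_kernel hv1 hνv hνne
  have hform : ∀ b (hb : b ∈ B), ⁅b, n * σ n⁆ =
      ((ν (π b hb) * sW σ (ν (sW σ (sW σ (π b hb)))) : om X) : X) := by
    intro b hb
    have h1 : ⁅b, σ n⁆ ∈ om X := D.comm_om hσN.2 hb
    rw [comm_mul_right_of_central (om_le_center h1)]
    have h2 : ⁅b, n⁆ = ν (π b hb) := (hν b hb).symm
    have hb' : σ.symm b ∈ B := D.hB.mem_symm hb
    have h3 : sW σ (sW σ (π b hb)) = π (σ.symm b) hb' := by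
      apply Subtype.ext
      show σ (σ (b ^ d)) = (σ.symm b) ^ d
      rw [← map_pow]
      have h4 := congrArg σ.symm (D.S.h3 _ (D.hd.h1 b hb))
      simpa using h4
    have h4 : ⁅b, σ n⁆ = sW σ (ν (π (σ.symm b) hb')) := by
      show ⁅b, σ n⁆ = σ (ν (π (σ.symm b) hb'))
      rw [show ((ν (π (σ.symm b) hb') : om X) : X) = ⁅σ.symm b, n⁆ from hν _ hb', map_comm]
      simp
    rw [h2, h3, h4]
    rfl
  have hn'B : n * σ n ∉ B := by
    intro h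
    obtain ⟨w, hw⟩ := D.S.exists_ne_one
    obtain ⟨b, hb, hbw⟩ := D.hd.h2 w.1 w.2
    have e : π b hb = w := Subtype.ext hbw
    apply hw
    apply hinj
    apply Subtype.ext
    rw [← e, ← hform b hb]
    exact commutatorElement_eq_one_iff_mul_comm.mpr (D.hB.hab _ hb _ h)
  have hx : π ((n * σ n) ^ 2) hn'N.2 = 1 := by
    apply hinj
    apply Subtype.ext
    rw [← hform _ hn'N.2]
    exact commutatorElement_eq_one_iff_mul_comm.mpr ((pow_succ _ 2).symm.trans (pow_succ' _ 2))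
  obtain ⟨c, hc, hc2⟩ := D.hd.h3 _ hn'N.2 (congrArg Subtype.val hx)
  exact D.not_sq hn'N hn'B hc hc2.symm

end Bd

namespace Sig

variable {A : Subgroup (MulAut X)} {σ : MulAut X}

/-- `K` cannot have order `16`. -/
theorem no_K16 (S : Sig A σ) (h16 : Nat.card (Kk X) = 16) : False := by
  obtain ⟨μ, hμ⟩ := S.exists_mu h16
  have hτ := S.tau_mu h16 hμ
  have hKgood : GoodB σ (Kk X) := by
    refine ⟨inferInstance, ?_, S.Kk_ab h16, le_rfl⟩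
    intro b
    refine ⟨fun h => ?_, Kk_aut σ⟩
    have := Kk_aut σ.symm h
    simpa using this
  obtain ⟨B, hKB, hBgood, hmax⟩ := (Set.toFinite {V : Subgroup X | GoodB σ V}).exists_le_maximal hKgood
  have hmax' : ∀ B', GoodB σ B' → B ≤ B' → B' ≤ B := fun B' h1 h2 => hmax h1 h2
  obtain ⟨d, hd, hd2⟩ := S.exists_pi h16 hBgood
  have hcent := S.selfcent hBgood hmax' hd
  rcases hd2 with rfl | h4d
  · exact S.no_d2 h16 hμ hτ hBgood hcent hd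
  · exact Bd.final ⟨S, h16, hμ, hτ, hBgood, hcent, hd, h4d⟩

/-- Final result in the case of a nontrivial action on `Ω₁(Z(X))`. -/
theorem case_three (S : Sig A σ) :
    Cfsg.IsSpecial 2 X ∧ Nat.card X = 64 ∧ Nat.card {x : X // orderOf x = 2} = 3 ∧
      ∀ x : X, orderOf x = 2 → x ∈ center X := by
  rcases S.Kk_card with h | h
  · exact (S.no_K16 h).elim
  · exact S.case_64 h

end Sig

end Cfsg.Agent.Lib.Scn3
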