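import Cfsg.Agent.Lib.Scn3.Sig

/-!
# `A` nontrivial on `Ω₁(Z(X))` of order four: the subgroup `K = Ω₁(Z₂(X) mod Ω₁(Z(X)))`
-/

set_option autoImplicit false
set_option linter.style.haveILetI false
set_option linter.unusedSectionVars false
set_option linter.unusedVariables false

namespace Cfsg.Agent.Lib.Scn3

open Subgroup
open scoped commutatorElement
open Cfsg.Agent.Lib.PGroup.Critical (omegaCentralMod mem_omegaCentralMod exists_mem_central_mod normal_sup_zpowers card_sup_zpowers card_eq_mul_relIndex)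

variable {X : Type*} [Group X]

/-- Two elements outside a subgroup of index two. -/
theorem index_two_mul {N M : Subgroup X} (hidx : N.relIndex M = 2) {a b : X} (ha : a ∈ M) (hb : b ∈ M)
    (ha' : a ∉ N) (hb' : b ∉ N) : a⁻¹ * b ∈ N := by
  have h : (N.subgroupOf M).index = 2 := hidx
  have h1 := Subgroup.mul_mem_iff_of_index_two h (a := ⟨a⁻¹, inv_mem ha⟩) (b := ⟨b, hb⟩)
  rw [mem_subgroupOf, mem_subgroupOf, mem_subgroupOf] at h1
  have h2 : (⟨a⁻¹, inv_mem ha⟩ : M).1 ∉ N := fun h3 => ha' (by simpa using inv_mem h3)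
  exact h1.mpr (iff_of_false h2 hb')

/-- `|G| = |ker f| * |range f|`. -/
theorem card_ker_mul_range {G H : Type*} [Group G] [Group H] (f : G →* H) :
    Nat.card G = Nat.card f.ker * Nat.card f.range := by
  rw [← Subgroup.index_ker, Subgroup.card_mul_index]

theorem relIndex_ne_zero' [Finite X] (L H : Subgroup X) : L.relIndex H ≠ 0 :=
  Subgroup.index_ne_zero_of_finite

theorem comm_mul_of_commute {u k z : X} (h : u * z = z * u) : ⁅u, k * z⁆ = ⁅u, k⁆ := by
  have h1 : z * u⁻¹ * z⁻¹ = u⁻¹ := by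
    have h2 : u⁻¹ * z = z * u⁻¹ := (show Commute u z from h).inv_left.eq
    rw [← h2]; group
  calc ⁅u, k * z⁆ = u * k * (z * u⁻¹ * z⁻¹) * k⁻¹ := by
        simp only [commutatorElement_def]; group
    _ = ⁅u, k⁆ := by
        rw [h1]; simp only [commutatorElement_def, mul_assoc]

/-- The subgroup `K`. -/
abbrev Kk (X : Type*) [Group X] : Subgroup X := omegaCentralMod 2 (om X)

theorem Kk_aut (φ : MulAut X) {k : X} (hk : k ∈ Kk X) : φ k ∈ Kk X :=
  aut_mem_ocm (om X) (fun φ _ hz => aut_mem_om φ hz) φ hk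

instance Kk_normal : (Kk X).Normal := by
  refine ⟨fun n hn g => ?_⟩
  have := Kk_aut (MulAut.conj g) hn
  simpa using this

theorem om_le_Kk : om X ≤ Kk X := by
  intro w hw
  refine ⟨fun g => ?_, ?_⟩
  · rw [comm_eq_one_of_center_left hw.1]; exact one_mem _
  · rw [hw.2]; exact one_mem _

/-- `G` is an elementary fact: `Ω₁(Z(X))` of order 4 is normal, so `K` commutes with it. -/
theorem comm_mem_om_of_mem_Kk {k : X} (hk : k ∈ Kk X) (g : X) : ⁅k, g⁆ ∈ om X := hk.1 g

section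

variable [Finite X] {A : Subgroup (MulAut X)} {σ : MulAut X}

namespace Sig

theorem ne_top_om (S : Sig A σ) : ¬ (⊤ : Subgroup X) ≤ om X := by
  intro h
  obtain ⟨a, b, hab⟩ := S.H.hna
  exact hab (mem_center_iff.mp (h (mem_top b)).1 a)

/-- Count for an abelian subgroup with squares and involutions in `Ω`. -/
theorem sq_count (S : Sig A σ) (L : Subgroup X) (hab : ∀ a ∈ L, ∀ b ∈ L, a * b = b * a) (hW : om X ≤ L)
    (hsq : ∀ a ∈ L, a ^ 2 ∈ om X) (hinv : ∀ a ∈ L, a ^ 2 = 1 → a ∈ om X) :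
    Nat.card L ≤ 16 ∧ (Nat.card L = 16 → ∀ w ∈ om X, ∃ a ∈ L, a ^ 2 = w) := by
  let q : L →* om X := MonoidHom.mk' (fun a => ⟨a.1 ^ 2, hsq a.1 a.2⟩) (by
    intro a b
    apply Subtype.ext
    show (a.1 * b.1) ^ 2 = a.1 ^ 2 * b.1 ^ 2
    exact (show Commute a.1 b.1 from hab a.1 a.2 b.1 b.2).mul_pow 2)
  have hker : Nat.card q.ker = 4 := by
    rw [← S.h4]
    apply Nat.card_congr
    refine ⟨fun z => ⟨z.1.1, hinv z.1.1 z.1.2 (congrArg Subtype.val z.2)⟩,
      fun w => ⟨⟨w.1, hW w.2⟩, Subtype.ext w.2.2⟩, fun z => rfl, fun w => rfl⟩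
  have hc := card_ker_mul_range q
  rw [hker] at hc
  have hr : Nat.card q.range ≤ 4 := by
    rw [← S.h4]
    exact Subgroup.card_le_card_group _
  refine ⟨by omega, ?_⟩
  intro h16
  have hr4 : Nat.card q.range = Nat.card (om X) := by rw [S.h4]; omega
  have htop : q.range = ⊤ := Subgroup.eq_top_of_card_eq _ hr4
  intro w hw
  obtain ⟨a, ha⟩ := (MonoidHom.range_eq_top.mp htop) ⟨w, hw⟩
  exact ⟨a.1, a.2, congrArg Subtype.val ha⟩

/-- `σ` has no nontrivial fixed points on `K`. -/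
theorem Kk_fix (S : Sig A σ) {k : X} (hk : k ∈ Kk X) (hfix : σ k = k) : k = 1 := by
  have h1 : k ^ 2 = 1 := by
    apply S.hfix _ hk.2
    rw [map_pow, hfix]
  have h2 := S.invol h1 hk.1
  exact S.hfix k h2 hfix

theorem Kk_inv_mem (S : Sig A σ) {k : X} (hk : k ∈ Kk X) (h2 : k ^ 2 = 1) : k ∈ om X := S.invol h2 hk.1

/-- The possible orders of `K`. -/
theorem Kk_card (S : Sig A σ) : Nat.card (Kk X) = 16 ∨ Nat.card (Kk X) = 64 := by
  have hW : Nat.card ((om X).subgroupOf (Kk X)) = 4 := by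
    rw [← S.h4]
    exact Nat.card_congr (subgroupOfEquivOfLe om_le_Kk).toEquiv
  haveI : ((om X).subgroupOf (Kk X)).Normal := inferInstance
  have hq := Cfsg.Agent.Lib.PGroup.AnisoQuad.card_quotient_le ((om X).subgroupOf (Kk X))
    (fun w hw x => Subtype.ext (mem_center_iff.mp (mem_subgroupOf.mp hw).1 x.1).symm)
    (fun x => mem_subgroupOf.mpr x.2.2)
    (fun x y => mem_subgroupOf.mpr (by
      have := x.2.1 y.1
      rwa [commutatorElement_def] at this))
    (fun w hw => Subtype.ext (mem_subgroupOf.mp hw).2) hW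
    (fun x hx => mem_subgroupOf.mpr (S.Kk_inv_mem x.2 (congrArg Subtype.val hx)))
  have hcK : Nat.card (Kk X) = Nat.card ((Kk X) ⧸ ((om X).subgroupOf (Kk X))) * 4 := by
    rw [← hW]
    exact Subgroup.card_eq_card_quotient_mul_card_subgroup _
  have hle : Nat.card (Kk X) ≤ 64 := by omega
  have hp : IsPGroup 2 (Kk X) := S.H.hX.to_subgroup _
  obtain ⟨k, hk⟩ := IsPGroup.iff_card.mp hp
  have hmod := S.card_mod_three (Kk X) (fun l hl => Kk_aut σ hl) (fun l hl h => S.Kk_fix hl h)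
  haveI : Fact (Nat.Prime 2) := ⟨Nat.prime_two⟩
  have hgt : 4 < Nat.card (Kk X) := by
    have hne : ¬ Kk X ≤ om X := by
      intro h
      obtain ⟨x, -, hx, hx2, hxg⟩ := exists_mem_central_mod S.H.hX (om X) ⊤ S.ne_top_om
      exact hx (h ⟨hxg, hx2⟩)
    by_contra h5
    exact hne (Subgroup.eq_of_le_of_card_ge om_le_Kk (by rw [S.h4]; omega)).ge
  have hk6 : k ≤ 6 := by
    by_contra h5
    have h6 : 2 ^ 7 ≤ 2 ^ k := Nat.pow_le_pow_right (by norm_num) (by omega)
    omega
  rw [hk] at hmod hgt hle ⊢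
  have hdec : ∀ k, k ≤ 6 → 4 < 2 ^ k → 2 ^ k ≤ 64 → 2 ^ k % 3 = 1 → 2 ^ k = 16 ∨ 2 ^ k = 64 := by decide
  exact hdec k hk6 hgt hle hmod

/-- `K` of order `64`: `X = K` is special. -/
theorem case_64 (S : Sig A σ) (h64 : Nat.card (Kk X) = 64) :
    Cfsg.IsSpecial 2 X ∧ Nat.card X = 64 ∧ Nat.card {x : X // orderOf x = 2} = 3 ∧
      ∀ x : X, orderOf x = 2 → x ∈ center X := by
  classical
  haveI : Fact (Nat.Prime 2) := ⟨Nat.prime_two⟩
  let U : Subgroup X := Kk X ⊓ centralizer (Kk X : Set X)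
  have hcU : ∀ a ∈ U, ∀ k ∈ Kk X, a * k = k * a := fun a ha k hk =>
    (mem_centralizer_iff.mp ha.2 k hk).symm
  have hUab : ∀ a ∈ U, ∀ b ∈ U, a * b = b * a := fun a ha b hb => hcU a ha b hb.1
  have hWU : om X ≤ U := by
    intro w hw
    refine ⟨om_le_Kk hw, mem_centralizer_iff.mpr ?_⟩
    intro k _
    exact (mem_center_iff.mp hw.1 k)
  have hUσ : ∀ a ∈ U, σ a ∈ U := by
    intro a ha
    refine ⟨Kk_aut σ ha.1, mem_centralizer_iff.mpr ?_⟩
    intro k hk
    have h1 := hcU a ha _ (Kk_aut σ.symm hk)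
    have h2 := congrArg σ h1
    simpa using h2.symm
  obtain ⟨hU16, hUs⟩ := S.sq_count U hUab hWU (fun a ha => ha.1.2) (fun a ha h2 => S.Kk_inv_mem ha.1 h2)
  have hmod := S.card_mod_three U hUσ (fun l hl h => S.Kk_fix hl.1 h)
  have hp : IsPGroup 2 U := S.H.hX.to_subgroup _
  obtain ⟨j, hj⟩ := IsPGroup.iff_card.mp hp
  have hge : 4 ≤ Nat.card U := by
    rw [← S.h4]
    exact Nat.card_le_card_of_injective _ (Subgroup.inclusion_injective hWU)
  have hU4or : Nat.card U = 4 ∨ Nat.card U = 16 := by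
    have hj4 : j ≤ 4 := by
      by_contra h5
      have h6 : 2 ^ 5 ≤ 2 ^ j := Nat.pow_le_pow_right (by norm_num) (by omega)
      omega
    rw [hj] at hmod hge hU16 ⊢
    have hdec : ∀ k, k ≤ 4 → 4 ≤ 2 ^ k → 2 ^ k ≤ 16 → 2 ^ k % 3 = 1 → 2 ^ k = 4 ∨ 2 ^ k = 16 := by decide
    exact hdec j hj4 hge hU16 hmod
  have hU4 : Nat.card U = 4 := by
    rcases hU4or with h | h
    · exact h
    · exfalso
      have hsurj := hUs h
      have hKU : Kk X ≤ U := by
        intro k hk
        obtain ⟨a, ha, ha2⟩ := hsurj _ hk.2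
        have hc : Commute k a⁻¹ := ((show Commute a k from hcU a ha k hk).inv_left).symm
        have hy : (k * a⁻¹) ^ 2 = 1 := by
          rw [hc.mul_pow, inv_pow, ha2, mul_inv_cancel]
        have hyW := S.Kk_inv_mem (mul_mem hk (inv_mem ha.1)) hy
        have hk' : k = (k * a⁻¹) * a := by group
        rw [hk']
        exact mul_mem (hWU hyW) ha
      have := Nat.card_le_card_of_injective _ (Subgroup.inclusion_injective hKU)
      omega
  have hUW : U = om X := (Subgroup.eq_of_le_of_card_ge hWU (by rw [hU4, S.h4])).symm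
  have hC : centralizer (Kk X : Set X) ≤ om X := by
    by_contra hnot
    haveI : (centralizer (Kk X : Set X)).Normal := inferInstance
    obtain ⟨x, hxC, hxW, hx2, hxg⟩ := exists_mem_central_mod S.H.hX (om X) _ hnot
    apply hxW
    rw [← hUW]
    exact ⟨⟨hxg, hx2⟩, hxC⟩
  have hcentK : ∀ {z : X}, (∀ k ∈ Kk X, ⁅k, z⁆ = 1) → z ∈ om X := by
    intro z hz
    apply hC
    rw [mem_centralizer_iff]
    intro k hk
    exact commutatorElement_eq_one_iff_mul_comm.mp (hz k hk)
  have hcomm : ∀ x y : X, ⁅x, y⁆ ∈ om X := by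
    intro x y
    apply hcentK
    intro k hk
    have h1 := map_commutatorElement (comHom (om X) om_le_center k hk.1) x y
    have h2 : ⁅(comHom (om X) om_le_center k hk.1) x, (comHom (om X) om_le_center k hk.1) y⁆ = 1 := by
      rw [commutatorElement_eq_one_iff_mul_comm]
      exact mul_comm _ _
    rw [h2] at h1
    exact congrArg Subtype.val h1
  have hsq : ∀ x : X, x ^ 2 ∈ om X := by
    intro x
    apply hcentK
    intro k hk
    rw [comm_sq_right (om_le_center (hk.1 x))]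
    exact (hk.1 x).2
  have hKtop : Kk X = ⊤ := eq_top_iff.mpr (fun x _ => ⟨hcomm x, hsq x⟩)
  have hcardX : Nat.card X = 64 := by
    rw [← h64, hKtop, Subgroup.card_top]
  have hZ : center X = om X := by
    refine le_antisymm ?_ om_le_center
    intro z hz
    apply hC
    rw [mem_centralizer_iff]
    intro k _
    exact (mem_center_iff.mp hz k)
  have hco : commutator X ≤ om X := by
    rw [_root_.commutator_def, Subgroup.commutator_le]
    exact fun a _ b _ => hcomm a b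
  have hWco : om X ≤ commutator X := by
    obtain ⟨a, b, hab⟩ := S.H.hna
    have hc1 : ⁅a, b⁆ ≠ 1 := fun h => hab (commutatorElement_eq_one_iff_mul_comm.mp h)
    have hmem : ∀ x y : X, ⁅x, y⁆ ∈ commutator X := by
      intro x y
      rw [_root_.commutator_def]
      exact commutator_mem_commutator (mem_top x) (mem_top y)
    intro w hw
    rcases S.hgen _ (hcomm a b) hc1 w hw with h | h | h | h <;> rw [h]
    · exact one_mem _
    · exact hmem a b
    · rw [map_comm]; exact hmem _ _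
    · rw [map_comm, map_comm]; exact hmem _ _
  have h1 : commutator X = om X := le_antisymm hco hWco
  have h3 : frattini X = om X := by
    refine le_antisymm (Cfsg.Agent.Lib.PGroup.ActionFrattini.frattini_le S.H.hX (om X) hco hsq) ?_
    rw [← h1]
    exact Cfsg.Agent.Lib.PGroup.FrattiniBasis.commutator_le_frattini S.H.hX
  have hinv : ∀ y : X, y ^ 2 = 1 → y ∈ om X := fun y hy => S.invol hy (hcomm y)
  refine ⟨⟨S.H.hX, h3.trans hZ.symm, h1.trans hZ.symm⟩, hcardX, ?_, ?_⟩
  · have h5 := card_order_two_add_one (X := X)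
    have h6 : Nat.card {x : X // x ^ 2 = 1} = Nat.card (om X) := by
      apply Nat.card_congr
      exact Equiv.subtypeEquivRight (fun x => ⟨hinv x, fun h => h.2⟩)
    have := S.h4
    omega
  · intro x hx
    rw [hZ]
    exact hinv x (by rw [← hx]; exact pow_orderOf_eq_one x)

/-- Abelianness criterion: see the text. -/
theorem tri_ab (S : Sig A σ) (H L : Subgroup X) (hLH : L ≤ H)
    (hLc : ∀ l ∈ L, ∀ h ∈ H, l * h = h * l)
    (hcomm : ∀ a ∈ H, ∀ b ∈ H, ⁅a, b⁆ ∈ om X)
    (hσ : ∀ a ∈ H, σ a ∈ H)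
    (hcard : Nat.card H ≤ 4 * Nat.card L)
    (hnew : ∀ u ∈ H, u ∉ L → σ u ∉ L ∧ u⁻¹ * σ u ∉ L) : ∀ a ∈ H, ∀ b ∈ H, a * b = b * a := by
  have hLpos : 0 < Nat.card L := Nat.card_pos
  have hrel : L.relIndex H ≤ 4 := by
    have h1 := card_eq_mul_relIndex hLH
    rw [h1] at hcard
    exact Nat.le_of_mul_le_mul_left (by rw [mul_comm (Nat.card L) 4]; exact hcard) hLpos
  have hrelne : L.relIndex H ≠ 0 := relIndex_ne_zero' L H
  -- the centralizers
  let C : X → Subgroup X := fun u => H ⊓ centralizer ({u} : Set X)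
  have hmemC : ∀ u g, g ∈ C u ↔ g ∈ H ∧ u * g = g * u := by
    intro u g
    show g ∈ H ⊓ centralizer ({u} : Set X) ↔ _
    rw [mem_inf, mem_centralizer_singleton_iff]
    exact and_congr_right (fun _ => eq_comm)
  have hLC : ∀ u ∈ H, L ≤ C u := by
    intro u hu l hl
    rw [hmemC]
    exact ⟨hLH hl, (hLc l hl u hu).symm⟩
  have hCH : ∀ u, C u ≤ H := fun u g hg => ((hmemC u g).mp hg).1
  have huC : ∀ u ∈ H, u ∈ C u := fun u hu => (hmemC u u).mpr ⟨hu, rfl⟩
  have hprod : ∀ u ∈ H, L.relIndex (C u) * (C u).relIndex H = L.relIndex H := fun u hu =>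
    Subgroup.relIndex_mul_relIndex L (C u) H (hLC u hu) (hCH u)
  have hCpos : ∀ u, (C u).relIndex H ≠ 0 := fun u => relIndex_ne_zero' _ _
  have hLpos2 : ∀ u, L.relIndex (C u) ≠ 0 := fun u => relIndex_ne_zero' _ _
  have hne1 : ∀ u ∈ H, u ∉ L → L.relIndex (C u) ≠ 1 := by
    intro u hu huL h1
    rw [Subgroup.relIndex_eq_one] at h1
    exact huL (h1 (huC u hu))
  have hle2 : ∀ u ∈ H, u ∉ L → (C u).relIndex H ≤ 2 := by
    intro u hu huL
    have h1 := hprod u hu
    have h2 := hne1 u hu huL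
    have h3 := hLpos2 u
    by_contra h4
    have h5 : 2 ≤ L.relIndex (C u) := by omega
    have h6 : 3 ≤ (C u).relIndex H := by omega
    have := Nat.mul_le_mul h5 h6
    omega
  -- `u` commutes with `σ u`
  have hcσ : ∀ k ∈ H, k ∉ L → ⁅k, σ k⁆ = 1 := by
    intro k hk hkL
    by_contra hc
    have hmemc := hcomm k hk _ (hσ k hk)
    set c := ⁅k, σ k⁆ with hcdef
    have hinvc : c⁻¹ = c := inv_eq_of_mul_eq_one_left (by rw [← pow_two]; exact hmemc.2)
    have h1 : ⁅σ k, k⁆ = c := by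
      rw [← commutatorElement_inv, ← hcdef, hinvc]
    have h2 : ⁅σ k, σ (σ k)⁆ = σ c := by rw [hcdef, map_comm]
    have hu := hσ k hk
    have huL := (hnew k hk hkL).1
    have ha : k ∉ C (σ k) := by
      intro h3
      have h4 := ((hmemC _ _).mp h3).2
      rw [← commutatorElement_eq_one_iff_mul_comm, h1] at h4
      exact hc h4
    have hb : σ (σ k) ∉ C (σ k) := by
      intro h3
      have h4 := ((hmemC _ _).mp h3).2
      rw [← commutatorElement_eq_one_iff_mul_comm, h2] at h4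
      apply hc
      exact σ.injective (h4.trans (map_one σ).symm)
    have hidx : (C (σ k)).relIndex H = 2 := by
      have h3 := hle2 _ hu huL
      have h4 := hCpos (σ k)
      have h5 : (C (σ k)).relIndex H ≠ 1 := by
        intro h6
        rw [Subgroup.relIndex_eq_one] at h6
        exact ha (h6 hk)
      omega
    have h3 := index_two_mul hidx hk (hσ _ hu) ha hb
    have h4 := ((hmemC _ _).mp h3).2
    have h5 : ⁅σ k, σ (σ k)⁆ = ⁅σ k, k⁆ := by
      have e1 : σ (σ k) = k * (k⁻¹ * σ (σ k)) := by group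
      calc ⁅σ k, σ (σ k)⁆ = ⁅σ k, k * (k⁻¹ * σ (σ k))⁆ := by rw [← e1]
        _ = ⁅σ k, k⁆ := comm_mul_of_commute h4
    rw [h1, h2] at h5
    -- `σ c = c`, so `c = 1`
    exact hc (S.hfix c hmemc h5)
  have hall : ∀ u ∈ H, u ∉ L → C u = H ∨ H ≤ C u := by
    intro u hu huL
    right
    rw [← Subgroup.relIndex_eq_one]
    by_contra h1
    have h2 := hCpos u
    have h3 : 2 ≤ (C u).relIndex H := by omega
    have h4 := hprod u hu
    have h5 : L.relIndex (C u) ≤ 2 := by
      by_contra h6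
      have h7 : 3 ≤ L.relIndex (C u) := by omega
      have := Nat.mul_le_mul h7 h3
      omega
    have h6 := hne1 u hu huL
    have h7 := hLpos2 u
    have h8 : L.relIndex (C u) = 2 := by omega
    have h9 : σ u ∈ C u := by
      rw [hmemC]
      exact ⟨hσ u hu, commutatorElement_eq_one_iff_mul_comm.mp (hcσ u hu huL)⟩
    exact (hnew u hu huL).2 (index_two_mul h8 (huC u hu) h9 huL (hnew u hu huL).1)
  intro a ha b hb
  by_cases haL : a ∈ L
  · exact hLc a haL b hb
  · rcases hall a ha haL with h | h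
    · exact ((hmemC a b).mp (h ▸ hb)).2
    · exact ((hmemC a b).mp (h hb)).2

/-- `K` is abelian when it has order `16`. -/
theorem Kk_ab (S : Sig A σ) (h16 : Nat.card (Kk X) = 16) : ∀ a ∈ Kk X, ∀ b ∈ Kk X, a * b = b * a := by
  refine S.tri_ab (Kk X) (om X) om_le_Kk (fun l hl h _ => mem_center_iff.mp hl.1 h |>.symm) (fun a ha b _ => ha.1 b)
    (fun a ha => Kk_aut σ ha) (by rw [h16, S.h4]) ?_
  intro u hu huW
  refine ⟨fun h => huW ((S.mem_om_iff u).mp h), ?_⟩
  intro hz
  apply huW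
  have hc : Commute u (u⁻¹ * σ u) := (mem_center_iff.mp hz.1 u)
  have h1 : σ u = u * (u⁻¹ * σ u) := by group
  have h2 : σ (u ^ 2) = u ^ 2 := by
    rw [map_pow]
    conv_lhs => rw [h1, hc.mul_pow, hz.2, mul_one]
  exact S.Kk_inv_mem hu (S.hfix _ hu.2 h2)

theorem Kk_surj (S : Sig A σ) (h16 : Nat.card (Kk X) = 16) : ∀ w ∈ om X, ∃ k ∈ Kk X, k ^ 2 = w :=
  (S.sq_count (Kk X) (S.Kk_ab h16) om_le_Kk (fun a ha => ha.2) (fun a ha h2 => S.Kk_inv_mem ha h2)).2 h16

end Sig

end

end Cfsg.Agent.Lib.Scn3
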