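import Cfsg.Agent.Lib.Scn3.Kk

/-!
# The action of `X` on `K / Ω`, seen as an endomorphism of `Ω`
-/

set_option autoImplicit false
set_option linter.style.haveILetI false
set_option linter.unusedSectionVars false
set_option linter.unusedVariables false

namespace Cfsg.Agent.Lib.Scn3

open Subgroup
open scoped commutatorElement
open Cfsg.Agent.Lib.PGroup.Critical (omegaCentralMod mem_omegaCentralMod exists_mem_central_mod normal_sup_zpowers card_sup_zpowers card_eq_mul_relIndex)

variable {X : Type*} [Group X]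

namespace Sig

variable [Finite X] {A : Subgroup (MulAut X)} {σ : MulAut X}

theorem exists_mu (S : Sig A σ) (h16 : Nat.card (Kk X) = 16) :
    ∃ μ : X →* (om X →* om X), ∀ (x k : X) (hk : k ∈ Kk X), ((μ x ⟨k ^ 2, hk.2⟩ : om X) : X) = ⁅k, x⁆ := by
  have hab := S.Kk_ab h16
  have hsurj := S.Kk_surj h16
  let q : Kk X →* om X := MonoidHom.mk' (fun a => ⟨a.1 ^ 2, a.2.2⟩) (by
    intro a b
    apply Subtype.ext
    show (a.1 * b.1) ^ 2 = a.1 ^ 2 * b.1 ^ 2
    exact (show Commute a.1 b.1 from hab a.1 a.2 b.1 b.2).mul_pow 2)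
  have hq : Function.Surjective q := by
    intro w
    obtain ⟨k, hk, hk2⟩ := hsurj w.1 w.2
    exact ⟨⟨k, hk⟩, Subtype.ext hk2⟩
  let g : X → (Kk X →* om X) := fun x => MonoidHom.mk' (fun a => ⟨⁅a.1, x⁆, a.2.1 x⟩) (by
    intro a b
    apply Subtype.ext
    exact comm_mul_left_of_central (om_le_center (b.2.1 x)))
  have hker : ∀ x, q.ker ≤ (g x).ker := by
    intro x a ha
    rw [MonoidHom.mem_ker] at ha ⊢
    have h1 : a.1 ^ 2 = 1 := congrArg Subtype.val ha
    have h2 := S.Kk_inv_mem a.2 h1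
    apply Subtype.ext
    exact comm_eq_one_of_center_left h2.1
  let ν : X → (om X →* om X) := fun x => q.liftOfSurjective hq ⟨g x, hker x⟩
  have hν : ∀ x (a : Kk X), ν x (q a) = g x a := fun x a => by
    exact MonoidHom.liftOfRightInverse_comp_apply ..
  let μ : X →* (om X →* om X) := MonoidHom.mk' ν (by
    intro x y
    ext w
    obtain ⟨a, rfl⟩ := hq w
    show ((ν (x * y)) (q a) : X) = (ν x (q a)) * (ν y (q a))
    rw [hν, hν, hν]
    exact comm_mul_right_of_central (om_le_center (a.2.1 y)))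
  refine ⟨μ, ?_⟩
  intro x k hk
  exact congrArg Subtype.val (hν x ⟨k, hk⟩)

theorem tau_mu (S : Sig A σ) (h16 : Nat.card (Kk X) = 16) {μ : X →* (om X →* om X)}
    (hμ : ∀ (x k : X) (hk : k ∈ Kk X), ((μ x ⟨k ^ 2, hk.2⟩ : om X) : X) = ⁅k, x⁆) :
    ∀ x, Tri.tau (sW σ) (μ x) = 1 := by
  have hT := S.tri
  have hsurj := S.Kk_surj h16
  -- equivariance
  have hE : ∀ φ : MulAut X, ∀ (x : X) (w : om X), ((μ (φ x) (sW φ w) : om X) : X) = φ (μ x w) := by
    intro φ x w
    obtain ⟨k, hk, hk2⟩ := hsurj w.1 w.2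
    have e1 : w = ⟨k ^ 2, hk.2⟩ := Subtype.ext hk2.symm
    have e2 : sW φ w = ⟨(φ k) ^ 2, (Kk_aut φ hk).2⟩ := Subtype.ext (by
      rw [sW_coe, ← hk2, map_pow])
    rw [e2, hμ _ _ (Kk_aut φ hk), e1, hμ _ _ hk, map_comm]
  have h := hom_eq_one_of_invariant A S.H.hXA ((Tri.tauHom (sW σ)).comp μ) (by
    intro φ hφ x
    show Tri.tau (sW σ) (μ (φ x)) = Tri.tau (sW σ) (μ x)
    rcases S.hact φ hφ with h1 | h1 | h1
    · congr 1
      ext w
      have h2 : sW φ w = w := Subtype.ext (h1 w w.2)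
      have h3 := hE φ x w
      rw [h2, h1 _ (μ x w).2] at h3
      exact h3
    · have h2 : μ (φ x) = (sW σ).comp ((μ x).comp ((sW σ).comp (sW σ))) := by
        ext w
        have h3 : sW φ (sW σ (sW σ w)) = w := by
          apply Subtype.ext
          rw [sW_coe, h1 _ (sW σ (sW σ w)).2]
          exact S.h3 w w.2
        have h4 := hE φ x (sW σ (sW σ w))
        rw [h3, h1 _ (μ x _).2] at h4
        exact h4
      rw [h2, hT.tau_conj1]
    · have h2 : μ (φ x) = ((sW σ).comp (sW σ)).comp ((μ x).comp (sW σ)) := by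
        ext w
        have h3 : sW φ (sW σ w) = w := by
          apply Subtype.ext
          rw [sW_coe, h1 _ (sW σ w).2]
          exact S.h3 w w.2
        have h4 := hE φ x (sW σ w)
        rw [h3, h1 _ (μ x _).2] at h4
        exact h4
      rw [h2, hT.tau_conj2])
  intro x
  exact h x

theorem exists_ne_one (S : Sig A σ) : ∃ w : om X, w ≠ 1 := by
  haveI : Nontrivial (om X) := by
    rw [← Finite.one_lt_card_iff_nontrivial, S.h4]
    norm_num
  exact exists_ne 1

end Sig

end Cfsg.Agent.Lib.Scn3
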