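import Mathlib

/-!
# Endomorphisms of a four-group commuting with nothing: the abstract computation
-/

set_option autoImplicit false

namespace Cfsg.Agent.Lib.Scn3

/-- A four-group `W` with a fixed point free automorphism `s` of order three. -/
structure Tri (W : Type*) [CommGroup W] (s : W →* W) : Prop where
  h2 : ∀ w : W, w ^ 2 = 1
  h3 : ∀ w : W, s (s (s w)) = w
  hfix : ∀ w : W, s w = w → w = 1
  hsum : ∀ w : W, w * s w * s (s w) = 1
  hgen : ∀ v : W, v ≠ 1 → ∀ w : W, w = 1 ∨ w = v ∨ w = s v ∨ w = s (s v)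

namespace Tri

variable {W : Type*} [CommGroup W] {s : W →* W}

/-- The averaging endomorphism. -/
def tau (s : W →* W) (m : W →* W) : W →* W :=
  m * (s.comp (m.comp (s.comp s))) * ((s.comp s).comp (m.comp s))

theorem tau_apply (m : W →* W) (w : W) :
    tau s m w = m w * s (m (s (s w))) * s (s (m (s w))) := rfl

/-- `tau` as a homomorphism. -/
def tauHom (s : W →* W) : (W →* W) →* (W →* W) :=
  MonoidHom.mk' (tau s) (by
    intro a b
    ext w
    simp only [tau_apply, MonoidHom.mul_apply, map_mul]
    simp only [mul_left_comm, mul_comm])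

theorem mul_self (T : Tri W s) (w : W) : w * w = 1 := by rw [← pow_two]; exact T.h2 w

theorem inv_eq (T : Tri W s) (w : W) : w⁻¹ = w := inv_eq_of_mul_eq_one_left (T.mul_self w)

theorem s_ne_one (T : Tri W s) {u : W} (hu : u ≠ 1) : s u ≠ 1 := by
  intro h
  apply hu
  have := T.h3 u
  rw [h, map_one, map_one] at this
  exact this.symm

theorem s_inj (T : Tri W s) {u v : W} (h : s u = s v) : u = v := by
  have h1 := T.h3 u
  have h2 := T.h3 v
  rw [h] at h1
  exact h1.symm.trans h2

/-- `s² w = w * s w`. -/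
theorem ss_eq (T : Tri W s) (w : W) : s (s w) = w * s w := by
  have h := T.hsum w
  have h1 : w * s w * s (s w) * s (s w) = s (s w) := by rw [h, one_mul]
  rw [mul_assoc, T.mul_self, mul_one] at h1
  exact h1.symm

theorem tau_conj1 (T : Tri W s) (m : W →* W) : tau s (s.comp (m.comp (s.comp s))) = tau s m := by
  ext w
  simp only [tau_apply, MonoidHom.comp_apply]
  rw [T.h3 (s w), T.h3 w, T.h3 (m w)]
  simp only [mul_left_comm, mul_comm]

theorem tau_conj2 (T : Tri W s) (m : W →* W) : tau s ((s.comp s).comp (m.comp s)) = tau s m := by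
  ext w
  simp only [tau_apply, MonoidHom.comp_apply]
  rw [T.h3 w, T.h3 (m w), T.h3 (s (m (s (s w))))]
  simp only [mul_left_comm, mul_comm]

/-- If `tau m = 1` and `m` kills a nontrivial vector, then `m = 1`. -/
theorem eq_one_of_tau (T : Tri W s) {m : W →* W} (hτ : tau s m = 1) {v : W} (hv : v ≠ 1) (hm : m v = 1) :
    ∀ w, m w = 1 := by
  have h1 : m (s (s v)) = m (s v) := by
    rw [T.ss_eq v, map_mul, hm, one_mul]
  -- evaluate `tau` at `s v`'s preimage
  have h2 := congrArg (fun f : W →* W => f v) hτ
  simp only [tau_apply, MonoidHom.one_apply] at h2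
  rw [hm, one_mul, h1] at h2
  -- `s u * s (s u) = 1`
  set u := m (s v) with hu
  have h3 : s u = s (s u) := by
    have h4 : s u * s (s u) * s (s u) = s (s u) := by rw [h2, one_mul]
    rw [mul_assoc, T.mul_self, mul_one] at h4
    exact h4
  have h5 : u = s u := T.s_inj h3
  have h6 : u = 1 := T.hfix u h5.symm
  intro w
  rcases T.hgen v hv w with h | h | h | h <;> rw [h]
  · exact map_one m
  · exact hm
  · exact h6
  · rw [h1]; exact h6

/-- If `tau m = 1` then `m` is not the identity. -/
theorem exists_ne_of_tau (T : Tri W s) {m : W →* W} (hτ : tau s m = 1) (hne : ∃ w : W, w ≠ 1) : ∃ w, m w ≠ w := by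
  by_contra hcon
  push Not at hcon
  obtain ⟨w, hw⟩ := hne
  have h2 := congrArg (fun f : W →* W => f w) hτ
  simp only [tau_apply, MonoidHom.one_apply] at h2
  rw [hcon, hcon, hcon] at h2
  have h3 : w * w * w = 1 := by
    simpa only [T.h3] using h2
  rw [T.mul_self, one_mul] at h3
  have h2 := h3
  exact hw h2

/-- The rank two property. -/
theorem inj_of_kernel (T : Tri W s) {m : W →* W} {v : W} (hv : v ≠ 1) (hm : m v = 1) (hne : ∃ w, m w ≠ 1) :
    ∀ x : W, m x * s (m (s (s x))) = 1 → x = 1 := by
  have h1 : m (s (s v)) = m (s v) := by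
    rw [T.ss_eq v, map_mul, hm, one_mul]
  set u := m (s v) with hu
  have hu1 : u ≠ 1 := by
    intro h
    obtain ⟨w, hw⟩ := hne
    apply hw
    rcases T.hgen v hv w with h' | h' | h' | h' <;> rw [h']
    · exact map_one m
    · exact hm
    · exact h
    · rw [h1]; exact h
  have hsv : s (s (s v)) = v := T.h3 v
  intro x hx
  rcases T.hgen v hv x with h | h | h | h
  · exact h
  · exfalso
    rw [h, hm, one_mul, h1] at hx
    exact T.s_ne_one hu1 hx
  · exfalso
    rw [h, hsv, hm, map_one, mul_one] at hx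
    exact hu1 hx
  · exfalso
    rw [h, h1, show s (s (s (s v))) = s v from T.h3 (s v)] at hx
    -- `u * s u = 1`
    have h5 : u = s u := by
      have h6 : u * (u * s u) = u := by rw [hx, mul_one]
      rw [← mul_assoc, T.mul_self, one_mul] at h6
      exact h6.symm
    exact hu1 (T.hfix u h5.symm)

end Tri

end Cfsg.Agent.Lib.Scn3
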