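import Cfsg.Agent.Lib.Scn3.CaseOne
import Cfsg.Agent.Lib.Scn3.Tri

/-!
# `A` nontrivial on `Ω₁(Z(X))` of order four: the automorphism `σ`
-/

set_option autoImplicit false
set_option linter.style.haveILetI false
set_option linter.unusedSectionVars false

namespace Cfsg.Agent.Lib.Scn3

open Subgroup
open scoped commutatorElement
open Cfsg.Agent.Lib.PGroup.Critical (omegaCentralMod mem_omegaCentralMod exists_mem_central_mod normal_sup_zpowers card_sup_zpowers)

variable {X : Type*} [Group X]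

/-- The four elements of the four-group. -/
theorem four_desc [Finite X] (h4 : Nat.card (om X) = 4) {ψ : MulAut X} (hψ : Odd (orderOf ψ)) {v : X}
    (hv : v ∈ om X) (hne : ψ v ≠ v) {w : X} (hw : w ∈ om X) : w = 1 ∨ w = v ∨ w = ψ v ∨ w = ψ (ψ v) := by
  classical
  letI : Fintype (om X) := Fintype.ofFinite _
  have hv1 : v ≠ 1 := by
    rintro rfl
    exact hne (map_one ψ)
  have h1v : ψ v ≠ 1 := fun h => hv1 (ψ.injective (h.trans (map_one ψ).symm))
  have h2v : ψ (ψ v) ≠ 1 := fun h => h1v (ψ.injective (h.trans (map_one ψ).symm))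
  have h21 : ψ (ψ v) ≠ ψ v := fun h => hne (ψ.injective h)
  have h20 : ψ (ψ v) ≠ v := fun h => hne (fix_of_sq_fix hψ h)
  let o : X → om X := fun y => if h : y ∈ om X then ⟨y, h⟩ else 1
  have ho : ∀ y (h : y ∈ om X), o y = ⟨y, h⟩ := fun y h => dif_pos h
  have hv' := aut_mem_om ψ hv
  have hv'' := aut_mem_om ψ hv'
  let S : Finset (om X) := {1, ⟨v, hv⟩, ⟨ψ v, hv'⟩, ⟨ψ (ψ v), hv''⟩}
  have hS : S.card = 4 := by
    refine Finset.card_eq_of_equiv_fin ?_ |>.trans rfl |>.trans rfl
    exact (Finset.equivFinOfCardEq (by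
      simp only [S]
      rw [Finset.card_insert_of_notMem, Finset.card_insert_of_notMem, Finset.card_insert_of_notMem, Finset.card_singleton]
      · simp only [Finset.mem_singleton, Subtype.mk.injEq]
        exact fun h => h21 h.symm
      · simp only [Finset.mem_insert, Finset.mem_singleton, Subtype.mk.injEq, not_or]
        exact ⟨fun h => hne h.symm, fun h => h20 h.symm⟩
      · simp only [Finset.mem_insert, Finset.mem_singleton, Subtype.ext_iff, OneMemClass.coe_one, not_or]
        exact ⟨fun h => hv1 h.symm, fun h => h1v h.symm, fun h => h2v h.symm⟩))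
  have hU : S = Finset.univ := by
    apply Finset.eq_univ_of_card
    rw [hS, ← Nat.card_eq_fintype_card, h4]
  have hm : (⟨w, hw⟩ : om X) ∈ S := by rw [hU]; exact Finset.mem_univ _
  simp only [S, Finset.mem_insert, Finset.mem_singleton, Subtype.ext_iff, OneMemClass.coe_one] at hm
  exact hm

/-- An automorphism of odd order moving an element of the four-group `Ω₁(Z(X))`. -/
theorem tri_of_odd [Finite X] (h4 : Nat.card (om X) = 4) {ψ : MulAut X} (hψ : Odd (orderOf ψ)) {u : X}
    (hu : u ∈ om X) (hne : ψ u ≠ u) :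
    (∀ w ∈ om X, ψ w = w → w = 1) ∧ (∀ w ∈ om X, ψ (ψ (ψ w)) = w) ∧
      (∀ w ∈ om X, w * ψ w * ψ (ψ w) = 1) ∧
      (∀ v ∈ om X, v ≠ 1 → ∀ w ∈ om X, w = 1 ∨ w = v ∨ w = ψ v ∨ w = ψ (ψ v)) := by
  have hmove : ∀ w ∈ om X, w ≠ 1 → ψ w ≠ w := by
    intro w hw hw1 hfw
    rcases four_desc h4 hψ hu hne hw with h | h | h | h
    · exact hw1 h
    · rw [h] at hfw; exact hne hfw
    · rw [h] at hfw; exact hne (ψ.injective hfw)
    · rw [h] at hfw; exact hne (ψ.injective (ψ.injective hfw))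
  have hfix : ∀ w ∈ om X, ψ w = w → w = 1 := by
    intro w hw hf
    by_contra h1
    exact hmove w hw h1 hf
  refine ⟨hfix, ?_, ?_, ?_⟩
  · intro w hw
    by_cases hw1 : w = 1
    · simp [hw1]
    have hm := hmove w hw hw1
    have h3 := aut_mem_om ψ (aut_mem_om ψ (aut_mem_om ψ hw))
    rcases four_desc h4 hψ hw hm h3 with h | h | h | h
    · exfalso
      have h5 : ψ (ψ w) = 1 := ψ.injective (h.trans (map_one ψ).symm)
      have h6 : ψ w = 1 := ψ.injective (h5.trans (map_one ψ).symm)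
      exact hw1 (ψ.injective (h6.trans (map_one ψ).symm))
    · exact h
    · exfalso
      have h5 : ψ (ψ w) = w := ψ.injective h
      exact hm (fix_of_sq_fix hψ h5)
    · exfalso
      have h5 : ψ (ψ w) = ψ w := ψ.injective h
      exact hm (ψ.injective h5)
  · intro w hw
    by_cases hw1 : w = 1
    · simp [hw1]
    have hm := hmove w hw hw1
    have h1 : w * ψ w ∈ om X := mul_mem hw (aut_mem_om ψ hw)
    have hcomm : w * ψ w = ψ w * w := (mem_center_iff.mp hw.1 _).symm
    have hww : w * w = 1 := by rw [← pow_two]; exact hw.2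
    have hpp : ψ w * ψ w = 1 := by rw [← pow_two]; exact (aut_mem_om ψ hw).2
    rcases four_desc h4 hψ hw hm h1 with h | h | h | h
    · exfalso
      have h5 : ψ w = w := by
        calc ψ w = w * (w * ψ w) := by rw [← mul_assoc, hww, one_mul]
          _ = w := by rw [h, mul_one]
      exact hm h5
    · exfalso
      have h5 : ψ w = 1 := by simpa using h
      exact hw1 (ψ.injective (h5.trans (map_one ψ).symm))
    · exfalso
      have h5 : w = 1 := by simpa using h
      exact hw1 h5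
    · rw [h, ← pow_two]
      exact (aut_mem_om ψ (aut_mem_om ψ hw)).2
  · intro v hv hv1 w hw
    exact four_desc h4 hψ hv (hmove v hv hv1) hw

section

variable [Finite X] {A : Subgroup (MulAut X)}

/-- The standing hypotheses for the case of a nontrivial action on `Ω₁(Z(X))`. -/
structure Sig (A : Subgroup (MulAut X)) (σ : MulAut X) : Prop where
  H : Hyp A
  h4 : Nat.card (om X) = 4
  hσ : σ ∈ A
  hfix : ∀ w ∈ om X, σ w = w → w = 1
  h3 : ∀ w ∈ om X, σ (σ (σ w)) = w
  hsum : ∀ w ∈ om X, w * σ w * σ (σ w) = 1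
  hgen : ∀ v ∈ om X, v ≠ 1 → ∀ w ∈ om X, w = 1 ∨ w = v ∨ w = σ v ∨ w = σ (σ v)
  hact : ∀ φ ∈ A, (∀ w ∈ om X, φ w = w) ∨ (∀ w ∈ om X, φ w = σ w) ∨ (∀ w ∈ om X, φ w = σ (σ w))
  he : ∃ e : ℕ, σ ^ 3 ^ e = 1

theorem exists_sig (H : Hyp A) (h4 : Nat.card (om X) = 4) {φ₀ : MulAut X} (hφ₀ : φ₀ ∈ A) {v : X} (hv : v ∈ om X)
    (hne : φ₀ v ≠ v) : ∃ σ, Sig A σ := by
  have hv1 : v ≠ 1 := by
    rintro rfl
    exact hne (map_one φ₀)
  have hord := odd_orderOf_of_mem H.hA hφ₀
  obtain ⟨-, h3, -, -⟩ := tri_of_odd h4 hord hv hne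
  obtain ⟨e, m, hm3, hm⟩ := Nat.exists_eq_pow_mul_and_not_dvd (n := orderOf φ₀) hord.pos.ne' 3 (by norm_num)
  have hpow : ∀ q : ℕ, ∀ w ∈ om X, (φ₀ ^ (3 * q)) w = w := by
    intro q
    induction q with
    | zero => intro w _; simp
    | succ q ih =>
      intro w hw
      rw [show 3 * (q + 1) = 3 * q + 3 by ring, pow_add, MulAut.mul_apply]
      have h5 : (φ₀ ^ 3) w = φ₀ (φ₀ (φ₀ w)) := by
        simp [pow_succ, MulAut.mul_apply]
      rw [h5, h3 w hw, ih w hw]
  set σ := φ₀ ^ m with hσdef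
  have hσA : σ ∈ A := pow_mem hφ₀ m
  have hσv : σ v ≠ v := by
    have hm' : m % 3 = 1 ∨ m % 3 = 2 := by omega
    rw [hσdef, ← Nat.div_add_mod m 3, pow_add, MulAut.mul_apply, mul_comm 3]
    rw [mul_comm (m / 3) 3]
    rw [hpow]
    · rcases hm' with h | h <;> rw [h]
      · simpa using hne
      · rw [pow_two, MulAut.mul_apply]
        intro h5
        exact hne (fix_of_sq_fix hord h5)
    · rcases hm' with h | h <;> rw [h]
      · simpa using aut_mem_om φ₀ hv
      · rw [pow_two, MulAut.mul_apply]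
        exact aut_mem_om φ₀ (aut_mem_om φ₀ hv)
  have hσord := odd_orderOf_of_mem H.hA hσA
  obtain ⟨t1, t2, t3, t4⟩ := tri_of_odd h4 hσord hv hσv
  have hall : ∀ ψ ∈ A, ψ v = v → ∀ w ∈ om X, ψ w = w := by
    intro ψ hψ hψv w hw
    by_contra hcon
    obtain ⟨t5, -, -, -⟩ := tri_of_odd h4 (odd_orderOf_of_mem H.hA hψ) hw hcon
    exact hv1 (t5 v hv hψv)
  refine ⟨σ, H, h4, hσA, t1, t2, t3, t4, ?_, ⟨e, ?_⟩⟩
  · intro φ hφ
    have hφv : φ v ∈ om X := aut_mem_om φ hv
    have hφ1 : φ v ≠ 1 := fun h => hv1 (φ.injective (h.trans (map_one φ).symm))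
    rcases t4 v hv hv1 _ hφv with h | h | h | h
    · exact absurd h hφ1
    · exact Or.inl (hall φ hφ h)
    · right; left
      intro w hw
      have h5 := hall (σ⁻¹ * φ) (mul_mem (inv_mem hσA) hφ) (by
        rw [MulAut.mul_apply, h]; simp) w hw
      rw [MulAut.mul_apply] at h5
      have h6 := congrArg σ h5
      simpa using h6
    · right; right
      intro w hw
      have h5 := hall (σ⁻¹ * (σ⁻¹ * φ)) (mul_mem (inv_mem hσA) (mul_mem (inv_mem hσA) hφ)) (by
        rw [MulAut.mul_apply, MulAut.mul_apply, h]; simp) w hw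
      rw [MulAut.mul_apply, MulAut.mul_apply] at h5
      have h6 := congrArg σ h5
      have h7 : σ⁻¹ (φ w) = σ w := by simpa using h6
      have h8 := congrArg σ h7
      simpa using h8
  · rw [hσdef, ← pow_mul, mul_comm, ← hm]
    exact pow_orderOf_eq_one φ₀

end

/-- Restriction of an automorphism to `Ω₁(Z(X))`. -/
def sW (σ : MulAut X) : om X →* om X :=
  MonoidHom.mk' (fun w => ⟨σ w, aut_mem_om σ w.2⟩) (fun a b => Subtype.ext (map_mul σ a.1 b.1))

@[simp] theorem sW_coe (σ : MulAut X) (w : om X) : ((sW σ w : om X) : X) = σ w := rfl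

namespace Sig

variable [Finite X] {A : Subgroup (MulAut X)} {σ : MulAut X}

theorem tri (S : Sig A σ) : Tri (om X) (sW σ) where
  h2 := fun w => Subtype.ext w.2.2
  h3 := fun w => Subtype.ext (S.h3 w w.2)
  hfix := fun w hw => Subtype.ext (S.hfix w w.2 (congrArg Subtype.val hw))
  hsum := fun w => Subtype.ext (S.hsum w w.2)
  hgen := by
    intro v hv w
    rcases S.hgen v v.2 (fun h => hv (Subtype.ext h)) w w.2 with h | h | h | h
    · exact Or.inl (Subtype.ext h)
    · exact Or.inr (Or.inl (Subtype.ext h))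
    · exact Or.inr (Or.inr (Or.inl (Subtype.ext h)))
    · exact Or.inr (Or.inr (Or.inr (Subtype.ext h)))

theorem hab (_S : Sig A σ) : ∀ a ∈ om X, ∀ b ∈ om X, a * b = b * a :=
  fun a _ b hb => (mem_center_iff.mp hb.1 a)

/-- Involutions central modulo `Ω₁(Z(X))` lie in `Ω₁(Z(X))`. -/
theorem invol (S : Sig A σ) {y : X} (hy2 : y ^ 2 = 1) (hyg : ∀ g, ⁅y, g⁆ ∈ om X) : y ∈ om X :=
  add_invol S.H.hX S.H.hs (om X) S.hab (fun a ha => ha.2) S.h4 hy2
    (fun a ha => (mem_center_iff.mp ha.1 y).symm) hyg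

/-- `σ` is a bijection of `Ω₁(Z(X))`: membership. -/
theorem mem_om_iff (_S : Sig A σ) (w : X) : σ w ∈ om X ↔ w ∈ om X := by
  refine ⟨fun h => ?_, aut_mem_om σ⟩
  have := aut_mem_om σ.symm h
  simpa using this

/-- Fixed point free invariant subgroups have order `1` modulo `3`. -/
theorem card_mod_three (S : Sig A σ) (L : Subgroup X) (hL : ∀ l ∈ L, σ l ∈ L)
    (hfp : ∀ l ∈ L, σ l = l → l = 1) : Nat.card L % 3 = 1 := by
  classical
  letI : Fintype L := Fintype.ofFinite _
  haveI : Fact (Nat.Prime 3) := ⟨Nat.prime_three⟩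
  obtain ⟨e, he⟩ := S.he
  let f : Function.End L := fun l => ⟨σ l, hL l l.2⟩
  have hf : ∀ (j : ℕ) (l : L), ((f ^ j) l : X) = (σ ^ j) l := by
    intro j
    induction j with
    | zero => intro l; rfl
    | succ j ih =>
      intro l
      rw [pow_succ', pow_succ', Function.End.mul_def, MulAut.mul_apply]
      show σ (((f ^ j) l : L) : X) = _
      rw [ih]
  have hf1 : f ^ 3 ^ e = 1 := by
    funext l
    apply Subtype.ext
    rw [hf, he]
    rfl
  have h := Equiv.Perm.card_fixedPoints_modEq hf1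
  have hfix : Fintype.card (Function.fixedPoints f) = 1 := by
    rw [Fintype.card_eq_one_iff]
    refine ⟨⟨1, ?_⟩, ?_⟩
    · show f 1 = 1
      apply Subtype.ext
      exact map_one σ
    · rintro ⟨l, hl⟩
      apply Subtype.ext
      apply Subtype.ext
      exact hfp l l.2 (congrArg Subtype.val (show f l = l from hl))
  rw [hfix] at h
  rw [Nat.card_eq_fintype_card]
  exact h

end Sig

end Cfsg.Agent.Lib.Scn3
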