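import Cfsg.Agent.Lib.Scn3.Base
import Cfsg.Agent.Lib.PGroup.FrattiniBasis

/-!
# The case where `A` acts trivially on `Ω₁(Z(X))`
-/

set_option autoImplicit false
set_option linter.style.haveILetI false
set_option linter.unusedSectionVars false

namespace Cfsg.Agent.Lib.Scn3

open Subgroup
open scoped commutatorElement
open Cfsg.Agent.Lib.PGroup.Critical (omegaCentralMod mem_omegaCentralMod exists_mem_central_mod normal_sup_zpowers card_sup_zpowers)

variable {X : Type*} [Group X]

/-- The standing hypotheses. -/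
structure Hyp (A : Subgroup (MulAut X)) : Prop where
  hX : IsPGroup 2 X
  hna : ∃ a b : X, a * b ≠ b * a
  hs : NoScn X
  hA : Odd (Nat.card A)
  hXA : closure {g : X | ∃ φ ∈ A, ∃ x : X, g = x⁻¹ * φ x} = ⊤

theorem aut_mem_center (φ : MulAut X) {z : X} (hz : z ∈ center X) : φ z ∈ center X := by
  rw [mem_center_iff]
  intro g
  have h := mem_center_iff.mp hz (φ.symm g)
  have h2 := congrArg φ h
  simpa using h2

theorem aut_mem_om (φ : MulAut X) {z : X} (hz : z ∈ om X) : φ z ∈ om X :=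
  ⟨aut_mem_center φ hz.1, by rw [← map_pow, hz.2, map_one]⟩

theorem map_comm (φ : MulAut X) (a b : X) : φ ⁅a, b⁆ = ⁅φ a, φ b⁆ := by
  simp [commutatorElement_def]

theorem comm_aut_right (φ : MulAut X) (a g : X) : ⁅φ a, g⁆ = φ ⁅a, φ.symm g⁆ := by
  simp [commutatorElement_def]

/-- `Ω₁`-type invariance of `omegaCentralMod`. -/
theorem aut_mem_ocm (Z : Subgroup X) [Z.Normal] (hZ : ∀ φ : MulAut X, ∀ z ∈ Z, φ z ∈ Z) (φ : MulAut X)
    {n : X} (hn : n ∈ omegaCentralMod 2 Z) : φ n ∈ omegaCentralMod 2 Z := by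
  obtain ⟨h1, h2⟩ := hn
  refine ⟨fun g => ?_, ?_⟩
  · rw [comm_aut_right]
    exact hZ φ _ (h1 _)
  · rw [← map_pow]
    exact hZ φ _ h2

section TCase

variable [Finite X] {A : Subgroup (MulAut X)}

theorem exists_pow_eq_one (H : Hyp A) (x : X) : ∃ e : ℕ, x ^ 2 ^ e = 1 := H.hX x

theorem fix_center (H : Hyp A) (hT : ∀ φ ∈ A, ∀ w ∈ om X, φ w = w) {φ : MulAut X} (hφ : φ ∈ A) :
    ∀ r ∈ center X, φ r = r := by
  have key : ∀ e : ℕ, ∀ r ∈ center X, r ^ 2 ^ e = 1 → φ r = r := by
    intro e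
    induction e with
    | zero =>
      intro r _ hr
      rw [pow_zero, pow_one] at hr
      rw [hr, map_one]
    | succ e ih =>
      intro r hr hre
      have h1 : (r ^ 2) ^ 2 ^ e = 1 := by rw [← pow_mul, ← pow_succ']; exact hre
      have h2 : φ (r ^ 2) = r ^ 2 := ih _ (pow_mem hr 2) h1
      have hcr := aut_mem_center φ hr
      have hu : r⁻¹ * φ r ∈ om X := by
        refine ⟨mul_mem (inv_mem hr) hcr, ?_⟩
        have hc : Commute r⁻¹ (φ r) := (mem_center_iff.mp hcr _)
        rw [hc.mul_pow, ← map_pow, h2, inv_pow, inv_mul_cancel]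
      have h3 := hT φ hφ _ hu
      have h4 : φ r = r * (r⁻¹ * φ r) := by group
      refine fix_of_sq_fix (odd_orderOf_of_mem H.hA hφ) ?_
      have h5 : φ (φ r) = φ r * (r⁻¹ * φ r) := by
        conv_lhs => rw [h4, map_mul, h3]
      rw [h5]
      have hsq : (r⁻¹ * φ r) ^ 2 = 1 := hu.2
      calc φ r * (r⁻¹ * φ r) = r * (r⁻¹ * φ r) * (r⁻¹ * φ r) := by rw [← h4]
        _ = r * (r⁻¹ * φ r) ^ 2 := by rw [pow_two]; group
        _ = r := by rw [hsq, mul_one]
  intro r hr
  obtain ⟨e, he⟩ := exists_pow_eq_one H r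
  exact key e r hr he

/-- The subgroup of elements central modulo `Z(X)` with square in `Z(X)`. -/
abbrev Nn (X : Type*) [Group X] : Subgroup X := omegaCentralMod 2 (center X)

theorem comm_mem_om_of_mem_Nn {n : X} (hn : n ∈ Nn X) (g : X) : ⁅n, g⁆ ∈ om X := by
  refine ⟨hn.1 g, ?_⟩
  rw [← comm_sq_left (hn.1 g)]
  exact comm_eq_one_of_center_left hn.2

theorem Nn_aut (φ : MulAut X) {n : X} (hn : n ∈ Nn X) : φ n ∈ Nn X :=
  aut_mem_ocm (center X) (fun φ _ hz => aut_mem_center φ hz) φ hn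

/-- An `A`-fixed element of `N` is central. -/
theorem mem_center_of_fixed (H : Hyp A) (hT : ∀ φ ∈ A, ∀ w ∈ om X, φ w = w) {n : X} (hn : n ∈ Nn X)
    (hfix : ∀ φ ∈ A, φ n = n) : n ∈ center X := by
  have hc : ∀ g, ⁅n, g⁆ ∈ om X := comm_mem_om_of_mem_Nn hn
  have h := hom_eq_one_of_invariant A H.hXA (comHom (om X) om_le_center n hc) (by
    intro φ hφ g
    apply Subtype.ext
    show ⁅n, φ g⁆ = ⁅n, g⁆
    have h1 := map_comm φ n g
    rw [hfix φ hφ, hT φ hφ _ (hc g)] at h1
    exact h1.symm)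
  rw [mem_center_iff]
  intro g
  have h2 : ⁅n, g⁆ = 1 := congrArg Subtype.val (h g)
  exact (commutatorElement_eq_one_iff_mul_comm.mp h2).symm

/-- Involutions in `Z(N)` are in `Ω₁(Z(X))`. -/
theorem invol_mem_om (H : Hyp A) (hT : ∀ φ ∈ A, ∀ w ∈ om X, φ w = w)
    (hcard : Nat.card (om X) = 2 ∨ Nat.card (om X) = 4)
    {y : X} (hyN : y ∈ Nn X) (hy2 : y ^ 2 = 1) (hyc : ∀ m ∈ Nn X, y * m = m * y) : y ∈ om X := by
  classical
  haveI : Fact (Nat.Prime 2) := ⟨Nat.prime_two⟩
  have hcommy := comm_mem_om_of_mem_Nn hyN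
  have hab : ∀ a ∈ om X, ∀ b ∈ om X, a * b = b * a := fun a _ b hb => (mem_center_iff.mp hb.1 a)
  rcases hcard with h2 | h4
  · by_contra hy
    have hy2' : y ^ 2 ∈ om X := by rw [hy2]; exact one_mem _
    -- `M = Ω ⊔ ⟨y⟩` has order four
    let M : Subgroup X := om X ⊔ zpowers y
    have hMn : M.Normal := normal_sup_zpowers (om X) hcommy
    have hMc : Nat.card M = 4 := by
      show Nat.card (om X ⊔ zpowers y : Subgroup X) = 4
      rw [card_sup_zpowers (om X) hy hy2', h2]
    have hform : ∀ a ∈ M, ∃ w ∈ om X, a = w ∨ a = w * y := by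
      intro a ha
      have ha' : a ∈ ((om X ⊔ zpowers y : Subgroup X) : Set X) := ha
      rw [normal_mul] at ha'
      obtain ⟨w, hw, z, hz, rfl⟩ := Set.mem_mul.mp ha'
      obtain ⟨i, rfl⟩ := mem_zpowers_iff.mp hz
      refine ⟨w, hw, ?_⟩
      rcases Int.even_or_odd' i with ⟨k, rfl | rfl⟩
      · left
        have : y ^ (2 * k) = 1 := by rw [zpow_mul]; simp [hy2]
        simp [this]
      · right
        have : y ^ (2 * k + 1) = y := by
          rw [zpow_add, zpow_mul, zpow_one]; simp [hy2]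
        simp [this]
    have hcen : ∀ w ∈ om X, ∀ g : X, Commute w g := fun w hw g => (mem_center_iff.mp hw.1 g).symm
    have hMab : ∀ a ∈ M, ∀ b ∈ M, a * b = b * a := by
      intro a ha b hb
      obtain ⟨w, hw, h1 | h1⟩ := hform a ha <;> obtain ⟨w', hw', h2 | h2⟩ := hform b hb <;> rw [h1, h2]
      · exact (hcen w hw _).eq
      · exact (hcen w hw _).eq
      · exact (hcen w' hw' _).eq.symm
      · exact ((hcen w hw _).mul_left ((hcen w' hw' y).symm.mul_right (Commute.refl y))).eq
    have hM2 : ∀ a ∈ M, a ^ 2 = 1 := by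
      intro a ha
      obtain ⟨w, hw, h1 | h1⟩ := hform a ha <;> rw [h1]
      · exact hw.2
      · have hc : Commute w y := (mem_center_iff.mp hw.1 y).symm
        rw [hc.mul_pow, hw.2, hy2, one_mul]
    have hoM : om X ≤ Nn X := by
      intro w hw
      refine ⟨fun g => ?_, ?_⟩
      · rw [comm_eq_one_of_center_left hw.1]; exact one_mem _
      · rw [hw.2]; exact one_mem _
    have hMN : M ≤ Nn X := sup_le hoM (by rw [zpowers_le]; exact hyN)
    have hfix : ∀ φ ∈ A, φ y = y := by
      intro φ hφ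
      have hφy : φ y ∈ M := by
        refine add_invol H.hX H.hs M hMab hM2 hMc (y := φ y) (by rw [← map_pow, hy2, map_one]) ?_ ?_
        · intro a ha
          -- `φ y` commutes with `N`
          have h1 := hyc (φ.symm a) (by
            exact Nn_aut φ.symm (hMN ha))
          have h2 := congrArg φ h1
          simpa using h2.symm
        · intro g
          have h1 := comm_mem_om_of_mem_Nn (Nn_aut φ hyN) g
          exact (le_sup_left : om X ≤ om X ⊔ zpowers y) h1
      obtain ⟨w, hw, h | h⟩ := hform _ hφy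
      · exfalso
        apply hy
        have h3 := hT φ hφ w hw
        have h4 : φ y = φ w := by rw [h, h3]
        have := φ.injective h4
        rw [this]; exact hw
      · refine fix_of_sq_fix (odd_orderOf_of_mem H.hA hφ) ?_
        rw [h, map_mul, hT φ hφ w hw, h, ← mul_assoc, ← pow_two, hw.2, one_mul]
    exact hy (show y ∈ om X from ⟨mem_center_of_fixed H hT hyN hfix, hy2⟩)
  · refine add_invol H.hX H.hs (om X) hab (fun a ha => ha.2) h4 hy2 (fun a ha => ?_) hcommy
    exact (mem_center_iff.mp ha.1 y).symm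

/-- `Z(N) ≤ Z(X)`. -/
theorem center_Nn_le (H : Hyp A) (hT : ∀ φ ∈ A, ∀ w ∈ om X, φ w = w)
    (hcard : Nat.card (om X) = 2 ∨ Nat.card (om X) = 4) {u : X} (huN : u ∈ Nn X)
    (huc : ∀ m ∈ Nn X, u * m = m * u) : u ∈ center X := by
  refine mem_center_of_fixed H hT huN ?_
  intro φ hφ
  have hφu : φ u ∈ Nn X := Nn_aut φ huN
  have hφc : ∀ m ∈ Nn X, φ u * m = m * φ u := by
    intro m hm
    have h1 := huc (φ.symm m) (Nn_aut φ.symm hm)
    have h2 := congrArg φ h1
    simpa using h2
  have hfixsq : φ (u ^ 2) = u ^ 2 := fix_center H hT hφ _ huN.2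
  have hcomm0 : Commute u (φ u) := huc _ hφu
  have hcomm : Commute u⁻¹ (φ u) := hcomm0.inv_left
  have hyN : u⁻¹ * φ u ∈ Nn X := mul_mem (inv_mem huN) hφu
  have hy2 : (u⁻¹ * φ u) ^ 2 = 1 := by
    rw [hcomm.mul_pow, ← map_pow, hfixsq, inv_pow, inv_mul_cancel]
  have hyc : ∀ m ∈ Nn X, (u⁻¹ * φ u) * m = m * (u⁻¹ * φ u) := by
    intro m hm
    have h1 : Commute u m := huc m hm
    have h2 : Commute (φ u) m := hφc m hm
    exact (h1.inv_left.mul_left h2).eq
  have hyom := invol_mem_om H hT hcard hyN hy2 hyc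
  refine fix_of_sq_fix (odd_orderOf_of_mem H.hA hφ) ?_
  have h4 : φ u = u * (u⁻¹ * φ u) := by group
  have h5 : φ (φ u) = φ u * (u⁻¹ * φ u) := by
    conv_lhs => rw [h4, map_mul, hT φ hφ _ hyom]
  rw [h5]
  calc φ u * (u⁻¹ * φ u) = u * (u⁻¹ * φ u) * (u⁻¹ * φ u) := by rw [← h4]
    _ = u * (u⁻¹ * φ u) ^ 2 := by rw [pow_two]; group
    _ = u := by rw [hy2, mul_one]

theorem centralizer_Nn_le (H : Hyp A) (hT : ∀ φ ∈ A, ∀ w ∈ om X, φ w = w)
    (hcard : Nat.card (om X) = 2 ∨ Nat.card (om X) = 4) :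
    centralizer (Nn X : Set X) ≤ center X := by
  haveI : Fact (Nat.Prime 2) := ⟨Nat.prime_two⟩
  haveI hNn : (Nn X).Normal := by
    refine ⟨fun n hn g => ?_⟩
    have := Nn_aut (MulAut.conj g) hn
    simpa using this
  by_contra hnot
  obtain ⟨x, hxC, hxZ, hx2, hxg⟩ := exists_mem_central_mod H.hX (center X) (centralizer (Nn X : Set X)) hnot
  refine hxZ (center_Nn_le H hT hcard ⟨hxg, hx2⟩ ?_)
  intro m hm
  exact (mem_centralizer_iff.mp hxC m hm).symm

/-- Main result in the trivial action case. -/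
theorem triv_main (H : Hyp A) (hT : ∀ φ ∈ A, ∀ w ∈ om X, φ w = w)
    (hcard : Nat.card (om X) = 2 ∨ Nat.card (om X) = 4) :
    commutator X = om X ∧ center X = om X ∧ frattini X = om X ∧ (∀ x : X, x ^ 2 ∈ om X) ∧
      ∀ x y : X, ⁅x, y⁆ ∈ om X := by
  haveI : Fact (Nat.Prime 2) := ⟨Nat.prime_two⟩
  have hC := centralizer_Nn_le H hT hcard
  -- every element lies in `N`
  have hmemN : ∀ x y : X, ⁅x, y⁆ ∈ center X ∧ x ^ 2 ∈ center X := by
    have hcent : ∀ {k : X}, (∀ n ∈ Nn X, ⁅n, k⁆ = 1) → k ∈ center X := by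
      intro k hk
      apply hC
      rw [mem_centralizer_iff]
      intro n hn
      exact commutatorElement_eq_one_iff_mul_comm.mp (hk n hn)
    intro x y
    constructor
    · apply hcent
      intro n hn
      have hc := comm_mem_om_of_mem_Nn hn
      have h1 := map_commutatorElement (comHom (om X) om_le_center n hc) x y
      have h2 : ⁅(comHom (om X) om_le_center n hc) x, (comHom (om X) om_le_center n hc) y⁆ = 1 := by
        rw [commutatorElement_eq_one_iff_mul_comm]
        exact mul_comm _ _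
      rw [h2] at h1
      exact congrArg Subtype.val h1
    · apply hcent
      intro n hn
      have hc := comm_mem_om_of_mem_Nn hn
      rw [comm_sq_right (om_le_center (hc x))]
      exact (hc x).2
  have hallN : ∀ x : X, x ∈ Nn X := fun x => ⟨fun y => (hmemN x y).1, (hmemN x x).2⟩
  have hcomm : ∀ x y : X, ⁅x, y⁆ ∈ om X := fun x y => comm_mem_om_of_mem_Nn (hallN x) y
  -- all squares lie in `Ω`
  have hsq : ∀ x : X, x ^ 2 ∈ om X := by
    have hle : closure {g : X | ∃ φ ∈ A, ∃ x : X, g = x⁻¹ * φ x} ≤ omegaCentralMod 2 (om X) := by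
      rw [closure_le]
      rintro _ ⟨φ, hφ, x, rfl⟩
      refine ⟨fun g => hcomm _ _, ?_⟩
      rw [sq_mul_of_central (om_le_center (hcomm _ _)), ← map_pow, fix_center H hT hφ _ (hmemN x x).2, inv_pow,
        inv_mul_cancel, one_mul]
      exact hcomm _ _
    rw [H.hXA] at hle
    exact fun x => (hle (mem_top x)).2
  -- the abelianization
  have hY : IsPGroup 2 (Abelianization X) :=
    H.hX.of_surjective (Abelianization.of) (QuotientGroup.mk'_surjective _)
  have hsqc : ∀ x : X, x ^ 2 ∈ commutator X := by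
    have h := hom_eq_one_of_invariant A H.hXA
      ((powMonoidHom 2 : Abelianization X →* Abelianization X).comp Abelianization.of) (by
        intro φ hφ x
        simp only [MonoidHom.comp_apply, powMonoidHom_apply, ← map_pow]
        rw [fix_center H hT hφ _ (hmemN x x).2])
    intro x
    have h1 := h x
    simp only [MonoidHom.comp_apply, powMonoidHom_apply, ← map_pow] at h1
    rw [← MonoidHom.mem_ker, Abelianization.ker_of] at h1
    exact h1
  have hZc : center X ≤ commutator X := by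
    intro r hr
    have h := hom_fix_eq_one A hY H.hA H.hXA Abelianization.of (r := r) (by
      intro φ hφ
      rw [fix_center H hT hφ r hr])
    rw [← MonoidHom.mem_ker, Abelianization.ker_of] at h
    exact h
  have hco : commutator X ≤ om X := by
    rw [_root_.commutator_def, Subgroup.commutator_le]
    exact fun a _ b _ => hcomm a b
  have h1 : commutator X = om X := le_antisymm hco ((om_le_center).trans hZc)
  have h2 : center X = om X := le_antisymm (hZc.trans hco) om_le_center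
  have h3 : frattini X = om X := by
    refine le_antisymm (Cfsg.Agent.Lib.PGroup.ActionFrattini.frattini_le H.hX (om X) hco hsq) ?_
    rw [← h1]
    exact Cfsg.Agent.Lib.PGroup.FrattiniBasis.commutator_le_frattini H.hX
  exact ⟨h1, h2, h3, hsq, hcomm⟩

end TCase

end Cfsg.Agent.Lib.Scn3
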